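import Mathlib
import Cfsg.Agent.Lib.SmallOrd.InvolTools

/-!
# A subgroup of order `8` with a unique involution

Let `T` be an abelian subgroup of order `8` with exactly three involutions, `s` an element outside `T`
normalizing `T` with `s² ∈ T` and moving the involution `u` of `T`.  Then `⟨T, s⟩`, of order `16`, has a
subgroup of order `8` (cyclic or quaternion) whose only involution is `u * u^s`.
-/

set_option autoImplicit false
set_option linter.unusedSectionVars false

namespace Cfsg.Agent.Lib.SmallOrd.OrderEight

open Subgroup Cfsg.Agent.Lib.SmallOrd.InvolTools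

variable {G : Type*} [Group G] [Finite G]

/-- The elements of a cyclic subgroup of order `4`. -/
theorem zpowers_four (y z : G) (hy : y * y = z) (hz2 : z * z = 1) (hz1 : z ≠ 1) :
    Nat.card (zpowers y) = 4 ∧ ∀ g ∈ zpowers y, g = 1 ∨ g = y ∨ g = z ∨ g = y * z := by
  classical
  have hord : orderOf y = 4 := by
    have h := orderOf_eq_prime_pow (p := 2) (n := 1) (x := y) (by
      rw [pow_one, pow_two, hy]
      exact hz1) (by
      have : y ^ 2 ^ (1 + 1) = (y * y) * (y * y) := by
        norm_num [pow_succ]
        group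
      rw [this, hy, hz2])
    simpa using h
  refine ⟨by rw [Nat.card_zpowers, hord], ?_⟩
  intro g hg
  rw [mem_zpowers_iff_mem_range_orderOf, hord] at hg
  obtain ⟨k, hk, rfl⟩ := Finset.mem_image.1 hg
  have hk4 := Finset.mem_range.1 hk
  interval_cases k
  · left; simp
  · right; left; simp
  · right; right; left
    rw [pow_two, hy]
  · right; right; right
    rw [← hy, pow_succ, pow_two]
    group

theorem exists_W_local (T : Subgroup G) (u s : G) (hTc : Nat.card T = 8)
    (hTcomm : ∀ a ∈ T, ∀ b ∈ T, a * b = b * a) (huT : u ∈ T) (hu2 : u * u = 1) (hu1 : u ≠ 1)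
    (hsT : s ∉ T) (hs2 : s * s ∈ T) (hsn : ∀ t ∈ T, s * t * s⁻¹ ∈ T)
    (hne : s * u * s⁻¹ ≠ u)
    (hV : ∀ t ∈ T, t * t = 1 → t = 1 ∨ t = u ∨ t = s * u * s⁻¹ ∨ t = u * (s * u * s⁻¹)) :
    ∃ W : Subgroup G, Nat.card W = 8 ∧ ∀ g ∈ W, g * g = 1 → g = 1 ∨ g = u * (s * u * s⁻¹) := by
  classical
  haveI : Fintype G := Fintype.ofFinite G
  set u' := s * u * s⁻¹ with hu'
  have hu'T : u' ∈ T := hsn u huT
  have hu'2 : u' * u' = 1 := by
    rw [hu']
    calc s * u * s⁻¹ * (s * u * s⁻¹) = s * (u * u) * s⁻¹ := by group
      _ = 1 := by rw [hu2]; group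
  have hu'1 : u' ≠ 1 := by
    intro h
    apply hu1
    have : u = s⁻¹ * u' * s := by rw [hu']; group
    rw [this, h]
    group
  have hcomm : u * u' = u' * u := hTcomm u huT u' hu'T
  have hneu : u' ≠ u := hne
  obtain ⟨z, hz⟩ : ∃ z, z = u * u' := ⟨_, rfl⟩
  rw [← hz] at hV ⊢
  have hzT : z ∈ T := by rw [hz]; exact T.mul_mem huT hu'T
  have hz2 : z * z = 1 := by
    calc z * z = u * u' * (u * u') := by rw [hz]
      _ = u * (u' * u) * u' := by group
      _ = u * (u * u') * u' := by rw [hcomm]
      _ = (u * u) * (u' * u') := by group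
      _ = 1 := by rw [hu2, hu'2, one_mul]
  have huinv : u⁻¹ = u := inv_eq_of_mul_eq_one_left hu2
  have hu'inv : u'⁻¹ = u' := inv_eq_of_mul_eq_one_left hu'2
  have hz1 : z ≠ 1 := by
    intro h
    apply hneu
    have : u' = u⁻¹ * (u * u') := by group
    rw [this, ← hz, h, huinv, mul_one]
  have hzu : z ≠ u := by
    intro h
    apply hu'1
    have : u' = u⁻¹ * (u * u') := by group
    rw [this, ← hz, h]
    group
  have hzu' : z ≠ u' := by
    intro h
    apply hu1
    have : u = (u * u') * u'⁻¹ := by group
    rw [this, ← hz, h]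
    group
  have hzuu : z * u = u' := by
    rw [hz]
    calc u * u' * u = u * (u' * u) := by group
      _ = u * (u * u') := by rw [hcomm]
      _ = (u * u) * u' := by group
      _ = u' := by rw [hu2, one_mul]
  have hzu'u : z * u' = u := by
    rw [hz]
    calc u * u' * u' = u * (u' * u') := by group
      _ = u := by rw [hu'2, mul_one]
  have hss : ∀ t ∈ T, s * (s * t * s⁻¹) * s⁻¹ = t := by
    intro t ht
    have h1 := hTcomm _ hs2 t ht
    calc s * (s * t * s⁻¹) * s⁻¹ = (s * s) * t * (s * s)⁻¹ := by group
      _ = t * (s * s) * (s * s)⁻¹ := by rw [h1]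
      _ = t := by group
  have hsu' : s * u' * s⁻¹ = u := hss u huT
  have hsmul : ∀ a b : G, s * (a * b) * s⁻¹ = (s * a * s⁻¹) * (s * b * s⁻¹) := by
    intro a b
    group
  have hsz : s * z * s⁻¹ = z := by
    rw [hz, hsmul, hsu', ← hu', hcomm]
  have hfix : ∀ d ∈ T, d * d = 1 → s * d * s⁻¹ = d → d = 1 ∨ d = z := by
    intro d hd hd2 hsd
    rcases hV d hd hd2 with h | h | h | h
    · exact Or.inl h
    · exfalso
      rw [h] at hsd
      exact hneu hsd
    · exfalso
      rw [h, hsu'] at hsd
      exact hneu hsd.symm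
    · exact Or.inr h
  -- the subgroup of elements of square one
  let V : Subgroup G :=
    { carrier := {t | t ∈ T ∧ t * t = 1}
      mul_mem' := by
        rintro a b ⟨ha, ha2⟩ ⟨hb, hb2⟩
        refine ⟨T.mul_mem ha hb, ?_⟩
        calc a * b * (a * b) = a * (b * a) * b := by group
          _ = a * (a * b) * b := by rw [hTcomm b hb a ha]
          _ = (a * a) * (b * b) := by group
          _ = 1 := by rw [ha2, hb2, one_mul]
      one_mem' := ⟨T.one_mem, by simp⟩
      inv_mem' := by
        rintro a ⟨ha, ha2⟩
        refine ⟨T.inv_mem ha, ?_⟩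
        rw [← mul_inv_rev, ha2, inv_one] }
  have hVmem : ∀ t, t ∈ V ↔ t ∈ T ∧ t * t = 1 := fun t => Iff.rfl
  have hVT : V ≤ T := fun t ht => ((hVmem t).1 ht).1
  have hVc : Nat.card V = 4 := by
    have h1 : (Finset.univ.filter (· ∈ V)) = ({1, u, u', z} : Finset G) := by
      ext t
      simp only [Finset.mem_filter, Finset.mem_univ, true_and, Finset.mem_insert, Finset.mem_singleton]
      constructor
      · intro ht
        exact hV t ((hVmem t).1 ht).1 ((hVmem t).1 ht).2
      · rintro (rfl | rfl | rfl | rfl)
        · exact V.one_mem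
        · exact (hVmem _).2 ⟨huT, hu2⟩
        · exact (hVmem _).2 ⟨hu'T, hu'2⟩
        · exact (hVmem _).2 ⟨hzT, hz2⟩
    have h2 : ({1, u, u', z} : Finset G).card = 4 := by
      rw [Finset.card_eq_succ]
      refine ⟨1, {u, u', z}, ?_, rfl, ?_⟩
      · simp only [Finset.mem_insert, Finset.mem_singleton, not_or]
        exact ⟨hu1.symm, hu'1.symm, hz1.symm⟩
      · rw [Finset.card_eq_three]
        exact ⟨u, u', z, hneu.symm, hzu.symm, hzu'.symm, rfl⟩
    rw [Nat.card_eq_fintype_card, Fintype.card_subtype, h1, h2]
  have hidx : V.relIndex T = 2 := by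
    have h1 := Cfsg.Agent.Lib.Perm.SylowIn.card_mul_relIndex hVT
    rw [hVc, hTc] at h1
    omega
  have hmem : ∀ a ∈ T, ∀ b ∈ T, a * a ≠ 1 → b * b ≠ 1 → (a * b) * (a * b) = 1 := by
    intro a ha b hb ha' hb'
    have h1 := mul_mem_of_relIndex_two hidx ha hb (fun h => ha' ((hVmem a).1 h).2)
      (fun h => hb' ((hVmem b).1 h).2)
    exact ((hVmem _).1 h1).2
  -- an element of square different from one
  obtain ⟨w, hwT, hw⟩ : ∃ w ∈ T, w * w ≠ 1 := by
    by_contra hno
    push_neg at hno
    have h1 : T ≤ V := fun t ht => (hVmem t).2 ⟨ht, hno t ht⟩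
    have h2 := Subgroup.card_le_of_le h1
    omega
  have hinvne : ∀ a : G, a * a ≠ 1 → a⁻¹ * a⁻¹ ≠ 1 := by
    intro a ha h
    apply ha
    have : a * a = (a⁻¹ * a⁻¹)⁻¹ := by simp
    rw [this, h, inv_one]
  have hsne : ∀ a : G, a * a ≠ 1 → (s * a * s⁻¹) * (s * a * s⁻¹) ≠ 1 := by
    intro a ha h
    apply ha
    have : a * a = s⁻¹ * ((s * a * s⁻¹) * (s * a * s⁻¹)) * s := by group
    rw [this, h]
    group
  have hkey : ∀ t ∈ T, t * t ≠ 1 → t * t = w * w := by
    intro t ht ht'
    have h1 := hmem t ht w⁻¹ (T.inv_mem hwT) ht' (hinvne w hw)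
    have h2 := hTcomm w⁻¹ (T.inv_mem hwT) t ht
    have h3 : t * w⁻¹ * (t * w⁻¹) = t * t * (w * w)⁻¹ := by
      calc t * w⁻¹ * (t * w⁻¹) = t * (w⁻¹ * t) * w⁻¹ := by group
        _ = t * (t * w⁻¹) * w⁻¹ := by rw [h2]
        _ = t * t * (w * w)⁻¹ := by group
    rw [h3] at h1
    exact mul_inv_eq_one.1 h1
  have hwwT : w * w ∈ T := T.mul_mem hwT hwT
  have hww2 : (w * w) * (w * w) = 1 := hmem w hwT w hwT hw hw
  have hsw := hsn w hwT
  have hsww : s * (w * w) * s⁻¹ = w * w := by
    rw [hsmul]
    exact hkey _ hsw (hsne w hw)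
  have hwwz : w * w = z := by
    rcases hfix _ hwwT hww2 hsww with h | h
    · exact absurd h hw
    · exact h
  -- the central element
  obtain ⟨c, hcT, hcc, hsc⟩ : ∃ c ∈ T, c * c = z ∧ s * c * s⁻¹ = c := by
    set d := w⁻¹ * (s * w * s⁻¹) with hd
    have hdT : d ∈ T := T.mul_mem (T.inv_mem hwT) hsw
    have hd2 : d * d = 1 := hmem _ (T.inv_mem hwT) _ hsw (hinvne w hw) (hsne w hw)
    have hds : s * d * s⁻¹ = d := by
      have h1 : s * d * s⁻¹ = d⁻¹ := by
        rw [hd, hsmul, hss w hwT, mul_inv_rev, inv_inv]
        group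
      rw [h1]
      exact inv_eq_of_mul_eq_one_left hd2
    have hsw' : s * w * s⁻¹ = w * d := by rw [hd]; group
    rcases hfix d hdT hd2 hds with h | h
    · refine ⟨w, hwT, hwwz, ?_⟩
      rw [hsw', h, mul_one]
    · refine ⟨w * u, T.mul_mem hwT huT, ?_, ?_⟩
      · calc w * u * (w * u) = w * (u * w) * u := by group
          _ = w * (w * u) * u := by rw [hTcomm u huT w hwT]
          _ = (w * w) * (u * u) := by group
          _ = z := by rw [hu2, mul_one, hwwz]
      · rw [hsmul, hsw', h, ← hu']
        calc w * z * u' = w * (z * u') := by group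
          _ = w * u := by rw [hzu'u]
  have hsc' : s * c = c * s := by
    calc s * c = s * c * s⁻¹ * s := by group
      _ = c * s := by rw [hsc]
  have hc1 : c * c ≠ 1 := by rw [hcc]; exact hz1
  -- the square of `s`
  have hsss : s * (s * s) * s⁻¹ = s * s := by group
  have hcases : s * s = 1 ∨ s * s = z ∨ s * s = c ∨ s * s = c * z := by
    by_cases hss1 : (s * s) * (s * s) = 1
    · rcases hfix _ hs2 hss1 hsss with h | h
      · exact Or.inl h
      · exact Or.inr (Or.inl h)
    · right; right
      set e := c⁻¹ * (s * s) with he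
      have heT : e ∈ T := T.mul_mem (T.inv_mem hcT) hs2
      have he2 : e * e = 1 := hmem _ (T.inv_mem hcT) _ hs2 (hinvne c hc1) hss1
      have hes : s * e * s⁻¹ = e := by
        rw [he, hsmul, hsss]
        congr 1
        calc s * c⁻¹ * s⁻¹ = (s * c * s⁻¹)⁻¹ := by group
          _ = c⁻¹ := by rw [hsc]
      have hse : s * s = c * e := by rw [he]; group
      rcases hfix e heT he2 hes with h | h
      · left
        rw [hse, h, mul_one]
      · right
        rw [hse, h]
  have hczc : z * c = c * z := hTcomm z hzT c hcT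
  by_cases hcase : s * s = c ∨ s * s = c * z
  · -- the cyclic case
    obtain ⟨hA, hAm⟩ := zpowers_four c z hcc hz2 hz1
    have hAT : zpowers c ≤ T := (Subgroup.zpowers_le).2 hcT
    have hczmem : c * z ∈ zpowers c := by
      rw [← hcc]
      have : c * (c * c) = c ^ (3 : ℤ) := by
        rw [zpow_ofNat, pow_succ, pow_two]
        group
      rw [this]
      exact Subgroup.zpow_mem _ (mem_zpowers c) _
    obtain ⟨W, hWc, hWm⟩ := exists_subgroup_union (zpowers c) s (fun h => hsT (hAT h))
      (by
        intro α hα
        rw [Subgroup.mem_zpowers_iff] at hα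
        obtain ⟨k, rfl⟩ := hα
        have := (Commute.zpow_right (show Commute s c from hsc') k).eq
        rw [this]
        simp only [mul_inv_cancel_right, Subgroup.zpow_mem _ (mem_zpowers c) k])
      (by
        rcases hcase with h | h
        · rw [h]
          exact mem_zpowers c
        · rw [h]
          exact hczmem)
    refine ⟨W, by rw [hWc, hA], ?_⟩
    intro g hg hg2
    rcases hWm g hg with h | ⟨α, hα, rfl⟩
    · rcases hAm g h with h1 | h1 | h1 | h1
      · exact Or.inl h1
      · exfalso
        rw [h1] at hg2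
        exact hc1 hg2
      · exact Or.inr h1
      · exfalso
        rw [h1] at hg2
        apply hz1
        calc z = (c * c) * (z * z) := by rw [hcc, hz2, mul_one]
          _ = c * (c * z) * z := by group
          _ = c * (z * c) * z := by rw [hczc]
          _ = c * z * (c * z) := by group
          _ = 1 := hg2
    · exfalso
      have hsα : s * α = α * s := by
        rw [Subgroup.mem_zpowers_iff] at hα
        obtain ⟨k, rfl⟩ := hα
        exact (Commute.zpow_right (show Commute s c from hsc') k).eq
      have h1 : s * α * (s * α) = (s * s) * (α * α) := by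
        calc s * α * (s * α) = s * (α * s) * α := by group
          _ = s * (s * α) * α := by rw [hsα]
          _ = (s * s) * (α * α) := by group
      rw [h1] at hg2
      have hcne : c ≠ 1 := by
        intro h
        apply hc1
        rw [h, one_mul]
      have hcz1 : c * z ≠ 1 := by
        intro h
        have h2 : c = z := by
          calc c = c * z * z⁻¹ := by group
            _ = z⁻¹ := by rw [h, one_mul]
            _ = z := inv_eq_of_mul_eq_one_left hz2
        apply hc1
        rw [h2, hz2]
      have hcz2 : c * z * z = c := by rw [mul_assoc, hz2, mul_one]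
      rcases hAm α hα with h2 | h2 | h2 | h2 <;> rcases hcase with h3 | h3 <;> rw [h2, h3] at hg2
      · apply hcne; simpa using hg2
      · apply hcz1; simpa using hg2
      · apply hcz1; rw [hcc] at hg2; exact hg2
      · apply hcne; rw [hcc, hcz2] at hg2; exact hg2
      · apply hcne; rw [hz2, mul_one] at hg2; exact hg2
      · apply hcz1; rw [hz2, mul_one] at hg2; exact hg2
      · apply hcz1
        have h4 : c * z * (c * z) = z := by
          calc c * z * (c * z) = c * (z * c) * z := by group
            _ = c * (c * z) * z := by rw [hczc]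
            _ = (c * c) * (z * z) := by group
            _ = z := by rw [hcc, hz2, mul_one]
        rw [h4] at hg2
        exact hg2
      · apply hcne
        have h4 : c * z * (c * z) = z := by
          calc c * z * (c * z) = c * (z * c) * z := by group
            _ = c * (c * z) * z := by rw [hczc]
            _ = (c * c) * (z * z) := by group
            _ = z := by rw [hcc, hz2, mul_one]
        rw [h4, hcz2] at hg2
        exact hg2
  · -- the quaternion case
    have hcase2 : s * s = 1 ∨ s * s = z := by
      rcases hcases with h | h | h | h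
      · exact Or.inl h
      · exact Or.inr h
      · exact absurd (Or.inl h) hcase
      · exact absurd (Or.inr h) hcase
    obtain ⟨s₁, hs₁T, hs₁2, hs₁c, hs₁u, hs₁z⟩ : ∃ s₁ : G, s₁ ∉ T ∧ s₁ * s₁ = 1 ∧ s₁ * c = c * s₁ ∧
        s₁ * u * s₁⁻¹ = u' ∧ s₁ * z = z * s₁ := by
      have hsz' : s * z = z * s := by
        calc s * z = s * z * s⁻¹ * s := by group
          _ = z * s := by rw [hsz]
      rcases hcase2 with h | h
      · exact ⟨s, hsT, h, hsc', rfl, hsz'⟩
      · refine ⟨s * u, fun hh => hsT ?_, ?_, ?_, ?_, ?_⟩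
        · have := T.mul_mem hh (T.inv_mem huT)
          simpa using this
        · calc s * u * (s * u) = u' * (s * s) * u := by rw [hu']; group
            _ = u' * z * u := by rw [h]
            _ = (u' * u) * (u' * u) := by rw [hz]; group
            _ = z * z := by rw [hz, ← hcomm]
            _ = 1 := hz2
        · calc s * u * c = s * (u * c) := by group
            _ = s * (c * u) := by rw [hTcomm u huT c hcT]
            _ = (s * c) * u := by group
            _ = (c * s) * u := by rw [hsc']
            _ = c * (s * u) := by group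
        · rw [hu']; group
        · calc s * u * z = s * (u * z) := by group
            _ = s * (z * u) := by rw [hTcomm u huT z hzT]
            _ = (s * z) * u := by group
            _ = (z * s) * u := by rw [hsz']
            _ = z * (s * u) := by group
    set a := c * u with ha
    have haT : a ∈ T := T.mul_mem hcT huT
    have hcu : c * u = u * c := hTcomm c hcT u huT
    have haa : a * a = z := by
      calc a * a = c * u * (c * u) := rfl
        _ = c * (u * c) * u := by group
        _ = c * (c * u) * u := by rw [hcu]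
        _ = (c * c) * (u * u) := by group
        _ = z := by rw [hcc, hu2, mul_one]
    obtain ⟨hA, hAm⟩ := zpowers_four a z haa hz2 hz1
    have hAT : zpowers a ≤ T := (Subgroup.zpowers_le).2 haT
    set b := c * s₁ with hb
    have hbT : b ∉ T := by
      intro hh
      apply hs₁T
      have := T.mul_mem (T.inv_mem hcT) hh
      rwa [hb, inv_mul_cancel_left] at this
    have hs₁inv : s₁⁻¹ = s₁ := inv_eq_of_mul_eq_one_left hs₁2
    have hbb : b * b = z := by
      calc b * b = c * s₁ * (c * s₁) := rfl
        _ = c * (s₁ * c) * s₁ := by group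
        _ = c * (c * s₁) * s₁ := by rw [hs₁c]
        _ = (c * c) * (s₁ * s₁) := by group
        _ = z := by rw [hcc, hs₁2, mul_one]
    have hbainv : b * a * b⁻¹ = a⁻¹ := by
      have h1 : b * a * b⁻¹ = c * u' := by
        calc b * a * b⁻¹ = c * (s₁ * c) * u * s₁⁻¹ * c⁻¹ := by rw [hb, ha]; group
          _ = c * (c * s₁) * u * s₁⁻¹ * c⁻¹ := by rw [hs₁c]
          _ = c * c * (s₁ * u * s₁⁻¹) * c⁻¹ := by group
          _ = c * c * u' * c⁻¹ := by rw [hs₁u]
          _ = c * (c * u') * c⁻¹ := by group
          _ = c * (u' * c) * c⁻¹ := by rw [hTcomm c hcT u' hu'T]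
          _ = c * u' := by group
      rw [h1]
      apply eq_inv_of_mul_eq_one_left
      calc c * u' * a = c * u' * (c * u) := rfl
        _ = c * (u' * c) * u := by group
        _ = c * (c * u') * u := by rw [hTcomm u' hu'T c hcT]
        _ = (c * c) * (u' * u) := by group
        _ = z * z := by rw [hcc, ← hcomm, ← hz]
        _ = 1 := hz2
    have hbα : ∀ α ∈ zpowers a, b * α * b⁻¹ = α⁻¹ := by
      intro α hα
      rw [Subgroup.mem_zpowers_iff] at hα
      obtain ⟨k, rfl⟩ := hα
      rw [← conj_zpow, hbainv, inv_zpow]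
    obtain ⟨W, hWc, hWm⟩ := exists_subgroup_union (zpowers a) b (fun h => hbT (hAT h))
      (by
        intro α hα
        rw [hbα α hα]
        exact Subgroup.inv_mem _ hα)
      (by
        rw [hbb, ← haa]
        exact Subgroup.mul_mem _ (mem_zpowers a) (mem_zpowers a))
    refine ⟨W, by rw [hWc, hA], ?_⟩
    intro g hg hg2
    rcases hWm g hg with h | ⟨α, hα, rfl⟩
    · rcases hAm g h with h1 | h1 | h1 | h1
      · exact Or.inl h1
      · exfalso
        rw [h1, haa] at hg2
        exact hz1 hg2
      · exact Or.inr h1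
      · exfalso
        rw [h1] at hg2
        apply hz1
        calc z = (a * a) * (z * z) := by rw [haa, hz2, mul_one]
          _ = a * (a * z) * z := by group
          _ = a * (z * a) * z := by rw [hTcomm a haT z hzT]
          _ = a * z * (a * z) := by group
          _ = 1 := hg2
    · exfalso
      apply hz1
      have hαT := hAT hα
      calc z = α⁻¹ * z * α := by rw [mul_assoc, hTcomm z hzT α hαT]; group
        _ = (b * α * b⁻¹) * (b * b) * α := by rw [hbα α hα, hbb]
        _ = b * α * (b * α) := by group
        _ = 1 := hg2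

end Cfsg.Agent.Lib.SmallOrd.OrderEight
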