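import Mathlib
import Cfsg.Prelude.Def_Blocks
import Cfsg.Agent.S4441
import Cfsg.Agent.S0138
import Cfsg.Agent.Lib.Blocks.TI9Block
import Cfsg.Agent.Lib.Blocks.TI9Char
import Cfsg.Agent.Lib.Blocks.HeightZero
import Cfsg.Agent.Lib.Char.BrauerSCNum
import Cfsg.Agent.Lib.Char.Burnside2
import Cfsg.Agent.Lib.SmallOrd.Basic
import Cfsg.Agent.Lib.Basic.SmallSimple
import Cfsg.Agent.Lib.SmallCen.SmallOrder

/-!
# Numerics of the principal block at a prime `p` with `p ∥ |G|`

* `involution_value`: in a perfect group, `χ(t) ∈ ℤ`, `χ(t) ≡ χ(1) (mod 4)` for an involution `t`.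
* `exists_data`: finset form of S4441.
* `even_bound`: if `C_G(P)` has even order, all nontrivial members of `B₀` have degree at least `2p`.
* `false_of_parity`: if moreover all such degrees are even, contradiction.
* `qcount`: the class count formula when `x` is self-centralizing.
-/

set_option autoImplicit false
set_option linter.unusedSectionVars false

namespace Cfsg.Agent.Lib.SmallOrd.PN

open Cfsg Subgroup Cfsg.Agent.Lib.Char Cfsg.Agent.Lib.Blocks.Local Cfsg.Agent.Lib.Blocks.Central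
open Cfsg.Agent.Lib.Blocks.Sections Cfsg.Agent.Lib.Blocks.Principal
open Cfsg.Agent.Lib.SmallOrd
open scoped ComplexConjugate commutatorElement

universe u

variable {G : Type u} [Group G] [Fintype G]

/-- The value at `1` of an irreducible character. -/
theorem apply_one (χ : IrrCharacter G) : (χ : G → ℂ) 1 = (charDegree (χ : G → ℂ) : ℂ) := by
  obtain ⟨n, hn, h⟩ := Ortho.irr_degree_pos χ.2
  have h2 : charDegree (χ : G → ℂ) = n := by
    simp [charDegree, h]
  rw [h, h2]

theorem degree_pos (χ : IrrCharacter G) : 0 < charDegree (χ : G → ℂ) := by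
  obtain ⟨n, hn, h⟩ := Ortho.irr_degree_pos χ.2
  have h2 : charDegree (χ : G → ℂ) = n := by
    simp [charDegree, h]
  omega

theorem degree_dvd_card (χ : IrrCharacter G) : charDegree (χ : G → ℂ) ∣ Nat.card G :=
  BrauerSCNum.degree_dvd χ _ (apply_one χ)

/-- A perfect group: the determinant is trivial. -/
theorem det_eq_one (hperf : commutator G = ⊤) {d : ℕ} (ρ : Representation ℂ G (Fin d → ℂ)) (t : G) :
    LinearMap.det (ρ t) = 1 := by
  let φ : G →* ℂ := (LinearMap.det : ((Fin d → ℂ) →ₗ[ℂ] (Fin d → ℂ)) →* ℂ).comp ρ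
  let ψ : G →* ℂˣ := MonoidHom.toHomUnits φ
  have hle : commutator G ≤ ψ.ker := by
    rw [commutator_def, commutator_le]
    intro a _ b _
    rw [MonoidHom.mem_ker, map_commutatorElement, commutatorElement_eq_one_iff_mul_comm.2 (mul_comm _ _)]
  have h1 : ψ t = 1 := hle (by rw [hperf]; exact mem_top t)
  have h2 : ((ψ t : ℂˣ) : ℂ) = φ t := MonoidHom.coe_toHomUnits φ t
  rw [h1] at h2
  simpa [φ] using h2.symm

/-- The value of an irreducible character of a perfect group at an involution. -/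
theorem involution_value (hperf : commutator G = ⊤) (χ : IrrCharacter G) {t : G} (ht : t ^ 2 = 1) :
    ∃ n : ℤ, (χ : G → ℂ) t = n ∧ (4 : ℤ) ∣ (charDegree (χ : G → ℂ) : ℤ) - n ∧
      |n| ≤ charDegree (χ : G → ℂ) := by
  classical
  obtain ⟨f, d, ρ, hρ, rfl⟩ := χ
  have hf : (ρ t) ^ 2 = 1 := by rw [← map_pow, ht, map_one]
  obtain ⟨n', b, μ, h1, h2⟩ := Ortho.exists_eigenbasis (ρ t) (by norm_num : 0 < 2) hf
  have hμ : ∀ i, μ i = 1 ∨ μ i = -1 := fun i => by
    have h3 : (μ i - 1) * (μ i + 1) = 0 := by linear_combination h2 i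
    rcases mul_eq_zero.1 h3 with h | h
    · left; linear_combination h
    · right; linear_combination h
  have hn' : n' = d := by
    have := Module.finrank_eq_card_basis b
    simpa using this.symm
  subst hn'
  have hdeg : charDegree (ρ.character) = n' := by
    simp [charDegree, Representation.char_one]
  set k := (Finset.univ.filter fun i => μ i = -1).card with hk
  have htr : ρ.character t = ((n' : ℤ) - 2 * k : ℤ) := by
    have h3 : ρ.character t = ∑ i, μ i := Ortho.trace_eq_sum_of_eigenbasis (ρ t) b μ h1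
    have h4 : ∀ i, μ i = 1 - 2 * (if μ i = -1 then (1 : ℂ) else 0) := by
      intro i
      rcases hμ i with h | h
      · rw [h, if_neg (by norm_num)]; ring
      · rw [h, if_pos rfl]; ring
    rw [h3, Finset.sum_congr rfl (fun i _ => h4 i), Finset.sum_sub_distrib, ← Finset.mul_sum,
      Finset.sum_boole, Finset.sum_const, Finset.card_univ, Fintype.card_fin]
    simp [hk]
  have hdet : LinearMap.det (ρ t) = ∏ i, μ i := by
    rw [← LinearMap.det_toMatrix b]
    have h5 : LinearMap.toMatrix b b (ρ t) = Matrix.diagonal μ := by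
      ext i j
      rw [LinearMap.toMatrix_apply, h1, map_smul]
      by_cases hij : i = j
      · subst hij
        simp
      · simp [Matrix.diagonal_apply_ne _ hij, Finsupp.single_apply, Ne.symm hij]
    rw [h5, Matrix.det_diagonal]
  have hprod : ∏ i, μ i = (-1 : ℂ) ^ k := by
    have h4 : ∀ i, μ i = (if μ i = -1 then (-1 : ℂ) else 1) := by
      intro i
      rcases hμ i with h | h
      · rw [h, if_neg (by norm_num)]
      · rw [h, if_pos rfl]
    rw [Finset.prod_congr rfl (fun i _ => h4 i), Finset.prod_ite, Finset.prod_const, Finset.prod_const_one, mul_one]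
  have hev : Even k := by
    have h6 : (-1 : ℂ) ^ k = 1 := by
      rw [← hprod, ← hdet]
      exact det_eq_one hperf ρ t
    exact (neg_one_pow_eq_one_iff_even (by norm_num)).1 h6
  have hkle : k ≤ n' := by
    have := Finset.card_filter_le (Finset.univ : Finset (Fin n')) (fun i => μ i = -1)
    simpa using this
  refine ⟨(n' : ℤ) - 2 * k, htr, ?_, ?_⟩
  · rw [hdeg]
    obtain ⟨m, hm⟩ := hev
    refine ⟨m, ?_⟩
    rw [hm]
    push_cast
    ring
  · rw [hdeg, abs_le]
    constructor <;> omega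

/-- The values of a nontrivial irreducible character of a simple nonabelian group are smaller than
the degree at non-identity elements. -/
theorem norm_ne_degree [IsSimpleGroup G] (hperf : commutator G = ⊤) (χ : IrrCharacter G)
    (hχ : (χ : G → ℂ) ≠ fun _ => 1) {g : G} (hg : g ≠ 1) :
    ‖(χ : G → ℂ) g‖ ≠ (charDegree (χ : G → ℂ) : ℝ) := by
  classical
  obtain ⟨f, d, ρ, hρ, rfl⟩ := χ
  intro hnorm
  have hdeg : charDegree (ρ.character) = d := by
    simp [charDegree, Representation.char_one]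
  haveI := hρ
  have hnorm' : ‖ρ.character g‖ = (Module.finrank ℂ (Fin d → ℂ) : ℝ) := by
    simpa [hdeg] using hnorm
  obtain ⟨ω, hω⟩ := (Cfsg.Agent.S0138.result ρ g).1 hnorm'
  have hker : ρ.ker = ⊥ ∨ ρ.ker = ⊤ := (inferInstance : IsSimpleGroup G).eq_bot_or_eq_top_of_normal _
    (MonoidHom.normal_ker ρ)
  rcases hker with hker | hker
  · have hinj : Function.Injective ρ := (MonoidHom.ker_eq_bot_iff ρ).1 hker
    have hcen : g ∈ Subgroup.center G := by
      rw [Subgroup.mem_center_iff]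
      intro h
      apply hinj
      rw [map_mul, map_mul, hω]
      ext v
      simp
    have h3 : Subgroup.center G = ⊥ ∨ Subgroup.center G = ⊤ :=
      (inferInstance : IsSimpleGroup G).eq_bot_or_eq_top_of_normal _ inferInstance
    rcases h3 with h3 | h3
    · rw [h3, mem_bot] at hcen
      exact hg hcen
    · have hc : ∀ a b : G, a * b = b * a := by
        intro a b
        have ha : a ∈ Subgroup.center G := by rw [h3]; exact mem_top a
        exact (Subgroup.mem_center_iff.1 ha b).symm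
      have h4 : commutator G = ⊥ := by
        rw [commutator_def, eq_bot_iff, commutator_le]
        intro a _ b _
        rw [mem_bot, commutatorElement_eq_one_iff_mul_comm]
        exact hc a b
      rw [hperf] at h4
      exact hg (by
        have : g ∈ (⊥ : Subgroup G) := by rw [← h4]; exact mem_top g
        simpa using this)
  · apply hχ
    have htriv : ∀ x : G, ρ x = 1 := fun x => by
      have : x ∈ ρ.ker := by rw [hker]; trivial
      exact this
    have hchar : ∀ x : G, ρ.character x = (d : ℂ) := by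
      intro x
      show LinearMap.trace ℂ _ (ρ x) = _
      rw [htriv]
      simp
    have hs := Cfsg.Agent.Lib.Char.Integrality.sum_character_mul_inv ρ
    simp only [hchar, Finset.sum_const, Finset.card_univ, nsmul_eq_mul, Nat.card_eq_fintype_card] at hs
    have hG : (Fintype.card G : ℂ) ≠ 0 := Nat.cast_ne_zero.mpr Fintype.card_ne_zero
    have hn2 : (d : ℂ) * d = 1 := mul_left_cancel₀ hG (by rw [hs, mul_one])
    have hn1 : d * d = 1 := by exact_mod_cast hn2
    have hn : d = 1 := Nat.eq_one_of_mul_eq_one_right hn1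
    funext x
    show ρ.character x = 1
    rw [hchar, hn]
    simp

/-- Integer values in the local ideal are divisible by `p`. -/
theorem dvd_of_memLocalIdeal {p : ℕ} [Fact p.Prime] {M : Ideal AlgInt} (hM : IsPModular p M) (a : ℤ)
    (h : MemLocalIdeal M (a : ℂ)) : (p : ℤ) ∣ a := by
  haveI := isPrime_of_isPModular hM
  rcases Int.natAbs_eq a with h1 | h1
  · rw [h1] at h ⊢
    simp only [Int.cast_natCast] at h
    exact Int.natCast_dvd_natCast.2 ((memLocalIdeal_natCast_iff hM).1 h)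
  · rw [h1] at h ⊢
    have h2 := memLocalIdeal_neg h
    simp only [Int.cast_neg, Int.cast_natCast, neg_neg] at h2
    exact (dvd_neg).2 (Int.natCast_dvd_natCast.2 ((memLocalIdeal_natCast_iff hM).1 h2))

/-- Maximal ideals of the algebraic integers over a prime exist. -/
theorem exists_modular (q : ℕ) (hq : q.Prime) : ∃ M : Ideal AlgInt, IsPModular q M := by
  have hne : Ideal.span {(q : AlgInt)} ≠ ⊤ := by
    intro h
    rw [Ideal.span_singleton_eq_top] at h
    obtain ⟨b, hb⟩ := h.exists_right_inv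
    have hb' : (q : ℂ) * (b : ℂ) = 1 := by
      have := congrArg (Subtype.val) hb
      simpa using this
    have hq0 : (q : ℂ) ≠ 0 := by exact_mod_cast hq.ne_zero
    have hz : ((1 : ℕ) : ℂ) / (q : ℂ) = (b : ℂ) := by
      field_simp
      simpa [mul_comm] using hb'.symm
    have hint : IsIntegral ℤ (((1 : ℕ) : ℂ) / (q : ℂ)) := by
      rw [hz]; exact b.2
    have := Integrality.natCast_dvd_of_isIntegral_div hq.ne_zero hint
    exact hq.one_lt.ne' (Nat.dvd_one.mp this)
  obtain ⟨M, hM, hle⟩ := Ideal.exists_le_maximal _ hne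
  exact ⟨M, hq, hM, hle (Ideal.mem_span_singleton_self _)⟩

section Data

/-- The data of S4441 in finset form. -/
structure BData (p : ℕ) [Fact p.Prime] (M : Ideal AlgInt) (P : Sylow p G) (e : ℕ) where
  X : Finset (IrrCharacter G)
  Y : Finset (IrrCharacter G)
  εX : IrrCharacter G → ℤ
  ε : ℤ
  mem_iff : ∀ χ : IrrCharacter G, χ ∈ principalBlock M G ↔ χ ∈ X ∨ χ ∈ Y
  disj : Disjoint X Y
  cardX : X.card = e
  cardY : Y.card = (p - 1) / e
  signX : ∀ χ ∈ X, εX χ = 1 ∨ εX χ = -1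
  degX : ∀ χ ∈ X, (charDegree (χ : G → ℂ) : ℤ) ≡ εX χ [ZMOD p]
  valX : ∀ χ ∈ X, ∀ x : G, x ∈ (P : Subgroup G) → x ≠ 1 → ∀ y : G,
    y ∈ Subgroup.centralizer ((P : Subgroup G) : Set G) → ¬ p ∣ orderOf y → (χ : G → ℂ) (x * y) = (εX χ : ℂ)
  sign : ε = 1 ∨ ε = -1
  degY : ∀ θ ∈ Y, (charDegree (θ : G → ℂ) : ℤ) ≡ ε * (e : ℤ) [ZMOD p]
  agree : ∀ θ ∈ Y, ∀ θ' ∈ Y, ∀ g : G, ¬ p ∣ orderOf g → (θ : G → ℂ) g = (θ' : G → ℂ) g
  rel : ∀ θ ∈ Y, ∀ g : G, ¬ p ∣ orderOf g →
    (ε : ℂ) * (θ : G → ℂ) g = ∑ χ ∈ X, (εX χ : ℂ) * (χ : G → ℂ) g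

variable {p : ℕ} [hpf : Fact p.Prime] {M : Ideal AlgInt}

/-- Finset form of S4441. -/
theorem exists_data (hM : IsPModular p M) (hodd : p ≠ 2) (P : Sylow p G) (hP : Nat.card P = p) (e : ℕ)
    (he : (Subgroup.centralizer ((P : Subgroup G) : Set G)).relIndex (Subgroup.normalizer ((P : Subgroup G) : Set G)) = e) :
    Nonempty (BData p M P e) := by
  classical
  obtain ⟨X, Y, hU, hD, hX, hY, εX, ε, hXp, hε, hYd, hYag, hrel⟩ :=
    Cfsg.Agent.S4441.result p M hM hodd P hP e he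
  have hXf : X.Finite := Set.toFinite X
  have hYf : Y.Finite := Set.toFinite Y
  refine ⟨⟨hXf.toFinset, hYf.toFinset, εX, ε, ?_, ?_, ?_, ?_, ?_, ?_, ?_, hε, ?_, ?_, ?_⟩⟩
  · intro χ
    rw [hU]
    simp
  · rw [Finset.disjoint_left]
    intro a ha hb
    exact Set.disjoint_left.1 hD (by simpa using ha) (by simpa using hb)
  · rw [← hX, Nat.card_coe_set_eq, Set.ncard_eq_toFinset_card _ hXf]
  · rw [← hY, Nat.card_coe_set_eq, Set.ncard_eq_toFinset_card _ hYf]
  · intro χ hχ
    exact (hXp χ (by simpa using hχ)).1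
  · intro χ hχ
    exact (hXp χ (by simpa using hχ)).2.1
  · intro χ hχ
    exact (hXp χ (by simpa using hχ)).2.2
  · intro θ hθ
    exact hYd θ (by simpa using hθ)
  · intro θ hθ θ' hθ' g hg
    exact hYag θ (by simpa using hθ) θ' (by simpa using hθ') g hg
  · intro θ hθ g hg
    rw [hrel θ (by simpa using hθ) g hg, finsum_mem_eq_finite_toFinset_sum _ hXf]

namespace BData

variable {P : Sylow p G} {e : ℕ} (D : BData p M P e)

theorem not_dvd_orderOf_one : ¬ p ∣ orderOf (1 : G) := by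
  rw [orderOf_one]
  exact (Fact.out : p.Prime).one_lt.ne' ∘ Nat.dvd_one.1

/-- The degree relation. -/
theorem sum_degree {θ : IrrCharacter G} (hθ : θ ∈ D.Y) :
    D.ε * (charDegree (θ : G → ℂ) : ℤ) = ∑ χ ∈ D.X, D.εX χ * (charDegree (χ : G → ℂ) : ℤ) := by
  have h := D.rel θ hθ 1 not_dvd_orderOf_one
  rw [apply_one] at h
  simp only [apply_one] at h
  exact_mod_cast h

theorem trivChar_mem (hM : IsPModular p M) : trivChar G ∈ D.X ∨ trivChar G ∈ D.Y := by
  haveI := isPrime_of_isPModular hM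
  exact (D.mem_iff _).1 trivChar_mem_principalBlock

theorem εX_trivChar (hodd : p ≠ 2) (h : trivChar G ∈ D.X) : D.εX (trivChar G) = 1 := by
  have h1 := D.degX _ h
  rw [charDegree_trivChar] at h1
  rcases D.signX _ h with h2 | h2
  · exact h2
  · rw [h2] at h1
    exfalso
    have h3 : (p : ℤ) ∣ -1 - 1 := by
      have := (Int.modEq_iff_dvd.1 h1)
      simpa using this
    have h4 : (p : ℤ) ∣ 2 := by
      have := (dvd_neg).2 h3
      simpa using this
    have h5 : p ∣ 2 := by exact_mod_cast h4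
    exact hodd ((Nat.prime_dvd_prime_iff_eq (Fact.out) Nat.prime_two).1 h5)

variable (hM : IsPModular p M) (hodd : p ≠ 2)
include hM hodd

theorem congr_X {χ : IrrCharacter G} (hχ : χ ∈ D.X) {x z : G} (hx : x ∈ (P : Subgroup G)) (hx1 : x ≠ 1)
    (hP : Nat.card P = p) (hz : z ∈ Subgroup.centralizer ((P : Subgroup G) : Set G)) (hzp : ¬ p ∣ orderOf z)
    {n : ℤ} (hn : (χ : G → ℂ) z = n) : (p : ℤ) ∣ D.εX χ - n := by
  haveI := isPrime_of_isPModular hM
  have h1 := D.valX χ hχ x hx hx1 z hz hzp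
  have hloc : ∀ g, MemLocalRing M ((χ : G → ℂ) g) := fun g =>
    memLocalRing_of_isIntegral (isIntegral_irr χ.2 g)
  have hcomm : Commute x z := (Subgroup.mem_centralizer_iff.1 hz x hx)
  have hxp : x ^ (p ^ 1) = 1 := by
    have h2 : (⟨x, hx⟩ : (P : Subgroup G)) ^ Nat.card (P : Subgroup G) = 1 := pow_card_eq_one'
    rw [hP] at h2
    rw [pow_one]
    have h3 := congrArg Subtype.val h2
    simpa using h3
  have h2 := Cfsg.Agent.Lib.Blocks.HeightZero.memLocalIdeal_character_mul_sub hM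
    (Basic.isCharacter_of_isIrrCharacter χ.2) hloc hcomm hxp
  rw [h1, hn] at h2
  apply dvd_of_memLocalIdeal hM
  push_cast
  exact h2

/-- An involution in the centralizer forces a large degree. -/
theorem bound_of_congr [IsSimpleGroup G] (hperf : commutator G = ⊤) (χ : IrrCharacter G)
    (hχ : (χ : G → ℂ) ≠ fun _ => 1) {z : G} (hz1 : z ≠ 1) {n : ℤ} (hn : (χ : G → ℂ) z = n)
    (h4 : (4 : ℤ) ∣ (charDegree (χ : G → ℂ) : ℤ) - n) (hle : |n| ≤ charDegree (χ : G → ℂ))
    (hp : (p : ℤ) ∣ (charDegree (χ : G → ℂ) : ℤ) - n) : 2 * p ≤ charDegree (χ : G → ℂ) := by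
  have hne := norm_ne_degree hperf χ hχ hz1
  have hpp : p.Prime := Fact.out
  have hn1 : n ≠ charDegree (χ : G → ℂ) := by
    intro h
    apply hne
    rw [hn, h]
    simp
  have hcop : IsCoprime (4 : ℤ) (p : ℤ) := by
    have h5 : Nat.Coprime 4 p := by
      have : Nat.Coprime 2 p := (Nat.coprime_primes Nat.prime_two hpp).2 (Ne.symm hodd)
      exact Nat.Coprime.pow_left 2 this
    exact_mod_cast Nat.isCoprime_iff_coprime.2 h5
  have h6 : (4 : ℤ) * p ∣ (charDegree (χ : G → ℂ) : ℤ) - n := IsCoprime.mul_dvd hcop h4 hp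
  have hle' := abs_le.1 hle
  have hpos : 0 < (charDegree (χ : G → ℂ) : ℤ) - n := by
    have : n ≤ charDegree (χ : G → ℂ) := hle'.2
    omega
  have h7 := Int.le_of_dvd hpos h6
  have : (2 : ℤ) * p ≤ charDegree (χ : G → ℂ) := by omega
  exact_mod_cast this

/-- All nontrivial members of the principal block have degree at least `2p` if the centralizer of
`P` contains an involution. -/
theorem even_bound [IsSimpleGroup G] (hperf : commutator G = ⊤) (hP : Nat.card P = p) {x z : G}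
    (hx : x ∈ (P : Subgroup G)) (hx1 : x ≠ 1) (hz : z ∈ Subgroup.centralizer ((P : Subgroup G) : Set G))
    (hz2 : orderOf z = 2) (χ : IrrCharacter G) (hχ : χ ∈ D.X ∨ χ ∈ D.Y) (hne : (χ : G → ℂ) ≠ fun _ => 1) :
    2 * p ≤ charDegree (χ : G → ℂ) := by
  classical
  have hpp : p.Prime := Fact.out
  have hzp : ¬ p ∣ orderOf z := by
    rw [hz2]
    intro h
    exact hodd ((Nat.prime_dvd_prime_iff_eq hpp Nat.prime_two).1 h)
  have hz1 : z ≠ 1 := by
    intro h
    rw [h, orderOf_one] at hz2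
    omega
  have hzz : z ^ 2 = 1 := by rw [← hz2]; exact pow_orderOf_eq_one z
  choose nn hnn using fun ψ : IrrCharacter G => involution_value hperf ψ hzz
  have hX : ∀ ψ ∈ D.X, (p : ℤ) ∣ D.εX ψ - nn ψ := fun ψ hψ =>
    D.congr_X hM hodd hψ hx hx1 hP hz hzp (hnn ψ).1
  rcases hχ with hχ | hχ
  · refine bound_of_congr hM hodd hperf χ hne hz1 (hnn χ).1 (hnn χ).2.1 (hnn χ).2.2 ?_
    have h1 := Int.modEq_iff_dvd.1 (D.degX χ hχ)
    have h2 := dvd_add h1 (hX χ hχ)
    have h3 : (D.εX χ - (charDegree (χ : G → ℂ) : ℤ)) + (D.εX χ - nn χ) =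
      2 * D.εX χ - (charDegree (χ : G → ℂ) : ℤ) - nn χ := by ring
    have h4 := (Int.modEq_iff_dvd.1 (D.degX χ hχ).symm)
    have h5 := dvd_sub (hX χ hχ) h4
    have h6 : D.εX χ - nn χ - ((charDegree (χ : G → ℂ) : ℤ) - D.εX χ) = 2 * D.εX χ - nn χ - (charDegree (χ : G → ℂ) : ℤ) := by ring
    have h7 := dvd_add h4 (hX χ hχ)
    have h8 : (charDegree (χ : G → ℂ) : ℤ) - D.εX χ + (D.εX χ - nn χ) = (charDegree (χ : G → ℂ) : ℤ) - nn χ := by ring
    rwa [h8] at h7
  · refine bound_of_congr hM hodd hperf χ hne hz1 (hnn χ).1 (hnn χ).2.1 (hnn χ).2.2 ?_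
    have h1 := D.rel χ hχ z hzp
    rw [(hnn χ).1, Finset.sum_congr rfl (fun ψ _ => by rw [(hnn ψ).1])] at h1
    have h2 : D.ε * nn χ = ∑ ψ ∈ D.X, D.εX ψ * nn ψ := by exact_mod_cast h1
    have h3 : (p : ℤ) ∣ D.ε * nn χ - e := by
      rw [h2]
      have h4 : ∑ ψ ∈ D.X, D.εX ψ * nn ψ - (e : ℤ) = ∑ ψ ∈ D.X, (D.εX ψ * nn ψ - 1) := by
        rw [Finset.sum_sub_distrib, Finset.sum_const, D.cardX]
        simp
      rw [h4]
      refine Finset.dvd_sum fun ψ hψ => ?_
      have h5 : D.εX ψ * nn ψ - 1 = D.εX ψ * (nn ψ - D.εX ψ) := by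
        rcases D.signX ψ hψ with h | h <;> rw [h] <;> ring
      rw [h5]
      have h6 := hX ψ hψ
      have h7 : nn ψ - D.εX ψ = -(D.εX ψ - nn ψ) := by ring
      rw [h7]
      exact Dvd.dvd.mul_left (dvd_neg.2 h6) _
    have h8 := Int.modEq_iff_dvd.1 (D.degY χ hχ).symm
    have h9 : (charDegree (χ : G → ℂ) : ℤ) - nn χ =
        ((charDegree (χ : G → ℂ) : ℤ) - D.ε * e) - D.ε * (D.ε * nn χ - e) := by
      rcases D.sign with h | h <;> rw [h] <;> ring
    rw [h9]
    exact dvd_sub h8 (Dvd.dvd.mul_left h3 _)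

omit hM hodd in
/-- Every degree of a member of `B₀` divides `m`, if `|G| = p m`. -/
theorem degree_dvd_m (hodd : p ≠ 2) {m : ℕ} (hm : Nat.card G = p * m) (he : e ∣ p - 1) (he0 : e ≠ 0) (χ : IrrCharacter G) (hχ : χ ∈ D.X ∨ χ ∈ D.Y) :
    charDegree (χ : G → ℂ) ∣ m := by
  have hpp : p.Prime := Fact.out
  have h1 := degree_dvd_card χ
  rw [hm] at h1
  have hep : e < p := by
    have := Nat.le_of_dvd (by have := hpp.two_le; omega) he
    have := hpp.two_le
    omega
  have hnd : ¬ p ∣ charDegree (χ : G → ℂ) := by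
    intro h
    rcases hχ with hχ | hχ
    · have h2 := Int.modEq_iff_dvd.1 (D.degX χ hχ)
      have h3 : (p : ℤ) ∣ (charDegree (χ : G → ℂ) : ℤ) := by exact_mod_cast h
      have h4 := dvd_add h2 h3
      have h5 : D.εX χ - (charDegree (χ : G → ℂ) : ℤ) + (charDegree (χ : G → ℂ) : ℤ) = D.εX χ := by ring
      rw [h5] at h4
      rcases D.signX χ hχ with h6 | h6 <;> rw [h6] at h4
      · have := Int.natAbs_dvd_natAbs.2 h4
        simp at this
        exact hpp.one_lt.ne' this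
      · have := Int.natAbs_dvd_natAbs.2 h4
        simp at this
        exact hpp.one_lt.ne' this
    · have h2 := Int.modEq_iff_dvd.1 (D.degY χ hχ)
      have h3 : (p : ℤ) ∣ (charDegree (χ : G → ℂ) : ℤ) := by exact_mod_cast h
      have h4 := dvd_add h2 h3
      have h5 : D.ε * (e : ℤ) - (charDegree (χ : G → ℂ) : ℤ) + (charDegree (χ : G → ℂ) : ℤ) = D.ε * e := by ring
      rw [h5] at h4
      have h6 : (p : ℤ) ∣ (e : ℤ) := by
        rcases D.sign with h7 | h7 <;> rw [h7] at h4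
        · simpa using h4
        · simpa using h4
      have h7 : p ∣ e := by exact_mod_cast h6
      have := Nat.le_of_dvd (Nat.pos_of_ne_zero he0) h7
      omega
  exact (hpp.coprime_iff_not_dvd.2 hnd).symm.dvd_of_dvd_mul_left h1

include D in
/-- The parity contradiction. -/
theorem false_of_parity [IsSimpleGroup G] (hperf : commutator G = ⊤) (hP : Nat.card P = p) {x z : G}
    (hx : x ∈ (P : Subgroup G)) (hx1 : x ≠ 1) (hz : z ∈ Subgroup.centralizer ((P : Subgroup G) : Set G))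
    (hz2 : orderOf z = 2) {m : ℕ} (hm : Nat.card G = p * m) (he : e ∣ p - 1) (he0 : e ≠ 0)
    (hnum : ∀ d : ℕ, d ∣ m → 2 * p ≤ d → ((d : ℤ) ≡ 1 [ZMOD p] ∨ (d : ℤ) ≡ -1 [ZMOD p] ∨ (d : ℤ) ≡ e [ZMOD p] ∨ (d : ℤ) ≡ -e [ZMOD p]) → Even d) :
    False := by
  classical
  have hpp : p.Prime := Fact.out
  have hev : ∀ χ : IrrCharacter G, (χ ∈ D.X ∨ χ ∈ D.Y) → χ ≠ trivChar G → Even (charDegree (χ : G → ℂ)) := by
    intro χ hχ hne
    have hne' : (χ : G → ℂ) ≠ fun _ => 1 := fun h => hne (Subtype.ext h)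
    refine hnum _ (D.degree_dvd_m hodd hm he he0 χ hχ) (D.even_bound hM hodd hperf hP hx hx1 hz hz2 χ hχ hne') ?_
    rcases hχ with hχ | hχ
    · rcases D.signX χ hχ with h | h
      · left; rw [← h]; exact D.degX χ hχ
      · right; left; rw [← h]; exact D.degX χ hχ
    · have h1 := D.degY χ hχ
      rcases D.sign with h | h <;> rw [h] at h1
      · right; right; left; simpa using h1
      · right; right; right; simpa using h1
  have hYc : D.Y.card ≠ 0 := by
    rw [D.cardY]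
    have : e ≤ p - 1 := Nat.le_of_dvd (by have := hpp.two_le; omega) he
    have h3 : 0 < (p - 1) / e := Nat.div_pos this (Nat.pos_of_ne_zero he0)
    omega
  have hYne : D.Y.Nonempty := Finset.card_pos.1 (Nat.pos_of_ne_zero hYc)
  have hXeven : ∀ ψ ∈ D.X, ψ ≠ trivChar G → Even (D.εX ψ * (charDegree (ψ : G → ℂ) : ℤ)) := by
    intro ψ hψ hne
    exact (Int.even_coe_nat _ |>.2 (hev ψ (Or.inl hψ) hne)).mul_left _
  rcases D.trivChar_mem hM with ht | ht
  · obtain ⟨θ, hθ⟩ := hYne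
    have hθne : θ ≠ trivChar G := by
      rintro rfl
      exact Finset.disjoint_left.1 D.disj ht hθ
    have h1 := D.sum_degree hθ
    rw [← Finset.add_sum_erase _ _ ht, D.εX_trivChar hodd ht, charDegree_trivChar] at h1
    have h2 : Even (∑ ψ ∈ D.X.erase (trivChar G), D.εX ψ * (charDegree (ψ : G → ℂ) : ℤ)) :=
      Finset.even_sum _ fun ψ hψ => hXeven ψ (Finset.mem_of_mem_erase hψ) (Finset.ne_of_mem_erase hψ)
    have h3 : Even (D.ε * (charDegree (θ : G → ℂ) : ℤ)) :=
      ((Int.even_coe_nat _).2 (hev θ (Or.inr hθ) hθne)).mul_left _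
    rw [h1] at h3
    obtain ⟨a, ha⟩ := h2
    obtain ⟨b, hb⟩ := h3
    rw [ha] at hb
    push_cast at hb
    omega
  · have h1 := D.sum_degree ht
    rw [charDegree_trivChar] at h1
    have hnot : ∀ ψ ∈ D.X, ψ ≠ trivChar G := by
      rintro ψ hψ rfl
      exact Finset.disjoint_left.1 D.disj hψ ht
    have h2 : Even (∑ ψ ∈ D.X, D.εX ψ * (charDegree (ψ : G → ℂ) : ℤ)) :=
      Finset.even_sum _ fun ψ hψ => hXeven ψ hψ (hnot ψ hψ)
    rw [← h1] at h2
    rcases D.sign with h | h <;> rw [h] at h2 <;> simp at h2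

/-- The class count at a self-centralizing element. -/
theorem qcount (hP : Nat.card P = p) {x : G} (hx : x ∈ (P : Subgroup G)) (hx1 : x ≠ 1)
    (hC : ∀ y : G, Commute y x → y ∈ (P : Subgroup G)) {u : G} (hu : ¬ p ∣ orderOf u)
    {θ₀ : IrrCharacter G} (hθ₀ : θ₀ ∈ D.Y) :
    ∃ n : ℕ, (((Subgroup.centralizer ({u} : Set G)).index : ℕ) : ℂ) ^ 2 *
        (∑ χ ∈ D.X, (D.εX χ : ℂ) * ((χ : G → ℂ) u * conj ((χ : G → ℂ) u)) / (charDegree (χ : G → ℂ) : ℂ) -
          (D.ε : ℂ) * ((θ₀ : G → ℂ) u * conj ((θ₀ : G → ℂ) u)) / (charDegree (θ₀ : G → ℂ) : ℂ)) =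
      (Nat.card G : ℂ) * n := by
  classical
  haveI := isPrime_of_isPModular hM
  letI : Fintype (IrrCharacter G) := Fintype.ofFinite _
  have hpp : p.Prime := Fact.out
  have horder : orderOf x = p ^ 1 := by
    rw [pow_one]
    have h1 : orderOf x ∣ p := by
      have h2 : orderOf (⟨x, hx⟩ : (P : Subgroup G)) ∣ Nat.card (P : Subgroup G) := orderOf_dvd_natCard _
      rw [hP, Subgroup.orderOf_mk] at h2
      exact h2
    rcases (Nat.dvd_prime hpp).1 h1 with h | h
    · exact absurd (orderOf_eq_one_iff.1 h) hx1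
    · exact h
  letI : Fintype (Cen x) := Fintype.ofFinite _
  have hxp : x ^ p = 1 := by
    rw [← pow_one p, ← horder]
    exact pow_orderOf_eq_one x
  have hU : ∀ ψ : IrrCharacter (Cen x), ψ ∈ principalBlock M (Cen x) := by
    intro ψ
    refine Cfsg.Agent.Lib.Blocks.TI9.mem_principalBlock_of_selfCen hM (⊤ : Subgroup (Cen x)) ?_ le_top ψ
    intro g
    have hg : ((g : Cen x) : G) ∈ (P : Subgroup G) := by
      apply hC
      have := (g : Cen x).2
      rw [Subgroup.mem_centralizer_singleton_iff] at this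
      exact this
    refine ⟨1, ?_⟩
    apply Subtype.ext
    apply Subtype.ext
    have h2 : (⟨_, hg⟩ : (P : Subgroup G)) ^ Nat.card (P : Subgroup G) = 1 := pow_card_eq_one'
    rw [hP] at h2
    have h3 := congrArg Subtype.val h2
    simpa using h3
  have hvan : ∀ χ : IrrCharacter G, χ ∉ D.X → χ ∉ D.Y → (χ : G → ℂ) x = 0 := by
    intro χ h1 h2
    have h3 : χ ∉ principalBlock M G := by
      rw [D.mem_iff]
      push Not
      exact ⟨h1, h2⟩
    have h4 := Cfsg.Agent.Lib.Blocks.TI9.apply_eq_zero_of_notMem hM horder hU 1 (by simpa using not_dvd_orderOf_one (G := G)) h3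
    simpa using h4
  have hone : (1 : G) ∈ Subgroup.centralizer ((P : Subgroup G) : Set G) := one_mem _
  have hXval : ∀ χ ∈ D.X, (χ : G → ℂ) x = (D.εX χ : ℂ) := by
    intro χ hχ
    have := D.valX χ hχ x hx hx1 1 hone not_dvd_orderOf_one
    rwa [mul_one] at this
  have hsplit : ∀ f : IrrCharacter G → ℂ, (∀ χ, χ ∉ D.X → χ ∉ D.Y → f χ = 0) →
      ∑ χ, f χ = ∑ χ ∈ D.X, f χ + ∑ χ ∈ D.Y, f χ := by
    intro f hf
    rw [← Finset.sum_union D.disj]
    symm
    apply Finset.sum_subset (Finset.subset_univ _)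
    intro χ _ h
    rw [Finset.mem_union] at h
    push Not at h
    exact hf χ h.1 h.2
  -- the sum of the exceptional values
  have hD0 : (charDegree (θ₀ : G → ℂ) : ℂ) ≠ 0 := Nat.cast_ne_zero.2 (degree_pos θ₀).ne'
  have hY1 : ∀ θ ∈ D.Y, (θ : G → ℂ) 1 = (charDegree (θ₀ : G → ℂ) : ℂ) := by
    intro θ hθ
    rw [D.agree θ hθ θ₀ hθ₀ 1 not_dvd_orderOf_one, apply_one]
  have hA : ∑ θ ∈ D.Y, (θ : G → ℂ) x = -(D.ε : ℂ) := by
    have h1 := Cfsg.Agent.Lib.Char.Burnside2.sum_degree_mul_character x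
    rw [if_neg hx1, hsplit _ (fun χ h2 h3 => by rw [hvan χ h2 h3, mul_zero])] at h1
    have h2 : ∑ χ ∈ D.X, (χ : G → ℂ) 1 * (χ : G → ℂ) x = (D.ε : ℂ) * (charDegree (θ₀ : G → ℂ) : ℂ) := by
      have h3 := D.sum_degree hθ₀
      have h4 : ((D.ε * (charDegree (θ₀ : G → ℂ) : ℤ) : ℤ) : ℂ) = ((∑ χ ∈ D.X, D.εX χ * (charDegree (χ : G → ℂ) : ℤ) : ℤ) : ℂ) := by
        rw [h3]
      push_cast at h4
      rw [h4]
      refine Finset.sum_congr rfl fun χ hχ => ?_
      rw [hXval χ hχ, apply_one]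
      ring
    have h5 : ∑ θ ∈ D.Y, (θ : G → ℂ) 1 * (θ : G → ℂ) x = (charDegree (θ₀ : G → ℂ) : ℂ) * ∑ θ ∈ D.Y, (θ : G → ℂ) x := by
      rw [Finset.mul_sum]
      exact Finset.sum_congr rfl fun θ hθ => by rw [hY1 θ hθ]
    rw [h2, h5] at h1
    apply mul_left_cancel₀ hD0
    linear_combination h1
  -- the class count
  have hcnt := Cfsg.Agent.Lib.Blocks.TI9.cnt_general_char u u x
  set c : ℕ := (Subgroup.centralizer ({u} : Set G)).index with hc
  set n : ℕ := Nat.card {s : G // IsConj u s ∧ IsConj (s * x) u} with hn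
  refine ⟨n, ?_⟩
  rw [hsplit _ (fun χ h2 h3 => by rw [hvan χ h2 h3, mul_zero, zero_mul])] at hcnt
  have hXs : ∑ χ ∈ D.X, centralChar (χ : G → ℂ) u * (χ : G → ℂ) x * conj ((χ : G → ℂ) u) =
      (c : ℂ) * ∑ χ ∈ D.X, (D.εX χ : ℂ) * ((χ : G → ℂ) u * conj ((χ : G → ℂ) u)) / (charDegree (χ : G → ℂ) : ℂ) := by
    rw [Finset.mul_sum]
    refine Finset.sum_congr rfl fun χ hχ => ?_
    rw [hXval χ hχ, centralChar, apply_one]
    ring
  have hYs : ∑ θ ∈ D.Y, centralChar (θ : G → ℂ) u * (θ : G → ℂ) x * conj ((θ : G → ℂ) u) =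
      -(c : ℂ) * ((D.ε : ℂ) * ((θ₀ : G → ℂ) u * conj ((θ₀ : G → ℂ) u)) / (charDegree (θ₀ : G → ℂ) : ℂ)) := by
    have h1 : ∀ θ ∈ D.Y, centralChar (θ : G → ℂ) u * (θ : G → ℂ) x * conj ((θ : G → ℂ) u) =
        ((c : ℂ) * ((θ₀ : G → ℂ) u * conj ((θ₀ : G → ℂ) u)) / (charDegree (θ₀ : G → ℂ) : ℂ)) * (θ : G → ℂ) x := by
      intro θ hθ
      rw [centralChar, hY1 θ hθ, D.agree θ hθ θ₀ hθ₀ u hu]
      ring
    rw [Finset.sum_congr rfl h1, ← Finset.mul_sum, hA]
    ring
  rw [hXs, hYs] at hcnt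
  have hcard : (c : ℂ) * (Nat.card (Subgroup.centralizer ({u} : Set G)) : ℂ) = (Nat.card G : ℂ) := by
    have := Subgroup.index_mul_card (Subgroup.centralizer ({u} : Set G))
    exact_mod_cast this
  rw [← hcard]
  linear_combination (c : ℂ) * hcnt

omit hM in
theorem exists_pair (hM : IsPModular p M) {D : BData p M P 2} (h3 : p ≠ 3) :
    ∃ χ₁ : IrrCharacter G, χ₁ ≠ trivChar G ∧ D.X = {trivChar G, χ₁} := by
  classical
  have hpp : p.Prime := Fact.out
  have ht : trivChar G ∈ D.X := by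
    rcases D.trivChar_mem hM with h | h
    · exact h
    · exfalso
      have h1 := D.degY _ h
      rw [charDegree_trivChar] at h1
      have h2 := Int.modEq_iff_dvd.1 h1
      rcases D.sign with h4 | h4 <;> rw [h4] at h2
      · have h5 : (p : ℤ) ∣ 1 := by simpa using h2
        have := Int.natAbs_dvd_natAbs.2 h5
        simp at this
        exact hpp.one_lt.ne' this
      · have h5 : (p : ℤ) ∣ 3 := by
          have := (dvd_neg).2 h2
          simpa using this
        have h6 : p ∣ 3 := by exact_mod_cast h5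
        exact h3 ((Nat.prime_dvd_prime_iff_eq hpp Nat.prime_three).1 h6)
  obtain ⟨a, b, hab, hX⟩ := Finset.card_eq_two.1 D.cardX
  rw [hX] at ht ⊢
  rw [Finset.mem_insert, Finset.mem_singleton] at ht
  rcases ht with h | h
  · refine ⟨b, ?_, ?_⟩
    · rw [h]; exact hab.symm
    · rw [h]
  · refine ⟨a, ?_, ?_⟩
    · rw [h]; exact hab
    · rw [h, Finset.pair_comm]

end BData

/-- A class of size a power of `2` does not exist. -/
theorem false_of_class [IsSimpleGroup G] (hnp : ¬ (Nat.card G).Prime) {y : G} (hy : y ≠ 1) {a m : ℕ}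
    (hN : Nat.card G = 2 ^ a * m) (hm : m ≠ 0) (hdvd : m ∣ Nat.card (Subgroup.centralizer ({y} : Set G))) : False := by
  obtain ⟨k, hk⟩ := hdvd
  have h1 := Subgroup.card_mul_index (Subgroup.centralizer ({y} : Set G))
  rw [hk, hN, mul_comm (2 ^ a) m, mul_assoc] at h1
  have h2 := Nat.eq_of_mul_eq_mul_left (Nat.pos_of_ne_zero hm) h1
  have h3 : (Subgroup.centralizer ({y} : Set G)).index ∣ 2 ^ a := ⟨k, by rw [← h2]; ring⟩
  obtain ⟨j, -, hj⟩ := (Nat.dvd_prime_pow Nat.prime_two).1 h3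
  exact hnp (Cfsg.Agent.Lib.Char.Burnside2.prime_card_of_simple_of_prime_power_class 2 j Nat.prime_two y hy hj)

/-- An element of order `3` centralizing a subgroup of order `p` in a group of order `2^a 9 p` does not
exist. -/
theorem false_of_three [IsSimpleGroup G] {p a : ℕ} (hp : p.Prime) (hp3 : p ≠ 3) (hp2 : p ≠ 2)
    (hN : Nat.card G = 2 ^ a * (9 * p)) (P : Subgroup G) (hP : Nat.card P = p) {y : G} (hy : orderOf y = 3)
    (hyP : y ∈ Subgroup.centralizer (P : Set G)) : False := by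
  classical
  haveI h3 : Fact (Nat.Prime 3) := ⟨Nat.prime_three⟩
  have hy1 : y ≠ 1 := by
    rintro rfl
    rw [orderOf_one] at hy
    omega
  have h9 : 9 ∣ Nat.card G := by rw [hN]; exact Dvd.intro_left _ (by ring : 2 ^ a * p * 9 = 2 ^ a * (9 * p))
  have hnp : ¬ (Nat.card G).Prime := by
    intro hpr
    have h31 : 3 ∣ Nat.card G := (by norm_num : 3 ∣ 9).trans h9
    have h32 : 3 = Nat.card G := (Nat.prime_dvd_prime_iff_eq Nat.prime_three hpr).1 h31
    rw [← h32] at h9
    omega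
  have hpg : IsPGroup 3 (Subgroup.zpowers y) := by
    apply IsPGroup.of_card (n := 1)
    rw [Nat.card_zpowers, hy]
    norm_num
  obtain ⟨Q, hQ⟩ := hpg.exists_le_sylow
  have hyQ : y ∈ (Q : Subgroup G) := hQ (Subgroup.mem_zpowers y)
  have hnd : ¬ 3 ∣ 2 ^ a * p := by
    intro h
    rcases (Nat.Prime.dvd_mul Nat.prime_three).1 h with h1 | h1
    · have := Nat.Prime.dvd_of_dvd_pow Nat.prime_three h1
      omega
    · exact hp3 ((Nat.prime_dvd_prime_iff_eq Nat.prime_three hp).1 h1).symm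
  have hQc : Nat.card (Q : Subgroup G) = 3 ^ 2 :=
    Cfsg.Agent.Lib.SmallCen.SmallOrder.card_sylow_eq (p := 3) (a := 2) (m := 2 ^ a * p)
      (by rw [hN]; ring) hnd Q
  haveI hcomm : IsMulCommutative (Q : Subgroup G) := IsPGroup.isMulCommutative_of_card_eq_prime_sq hQc
  have hQle : (Q : Subgroup G) ≤ Subgroup.centralizer ({y} : Set G) := by
    intro q hq
    rw [Subgroup.mem_centralizer_singleton_iff]
    have h1 : (⟨q, hq⟩ : (Q : Subgroup G)) * ⟨y, hyQ⟩ = ⟨y, hyQ⟩ * ⟨q, hq⟩ := hcomm.is_comm.comm _ _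
    exact congrArg Subtype.val h1
  have hPle : P ≤ Subgroup.centralizer ({y} : Set G) := by
    intro q hq
    rw [Subgroup.mem_centralizer_singleton_iff]
    exact (Subgroup.mem_centralizer_iff.1 hyP q hq)
  have h91 : 9 ∣ Nat.card (Subgroup.centralizer ({y} : Set G)) := by
    have := Subgroup.card_dvd_of_le hQle
    rw [hQc] at this
    simpa using this
  have hp1 : p ∣ Nat.card (Subgroup.centralizer ({y} : Set G)) := by
    have := Subgroup.card_dvd_of_le hPle
    rwa [hP] at this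
  have hcop : Nat.Coprime 9 p := by
    have : Nat.Coprime 3 p := (Nat.coprime_primes Nat.prime_three hp).2 (Ne.symm hp3)
    exact Nat.Coprime.pow_left 2 this
  exact false_of_class hnp hy1 hN (by have := hp.pos; positivity) (hcop.mul_dvd_of_dvd_of_dvd h91 hp1)

/-- A central involution of a Sylow `2`-subgroup. -/
theorem exists_central_involution {a m' : ℕ} (h : Nat.card G = 2 ^ a * m') (hm' : ¬ 2 ∣ m') (ha : a ≠ 0) :
    ∃ u : G, orderOf u = 2 ∧ (Subgroup.centralizer ({u} : Set G)).index ∣ m' := by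
  classical
  haveI : Fact (Nat.Prime 2) := ⟨Nat.prime_two⟩
  obtain ⟨T⟩ : Nonempty (Sylow 2 G) := inferInstance
  have hT : Nat.card (T : Subgroup G) = 2 ^ a := Cfsg.Agent.Lib.SmallCen.SmallOrder.card_sylow_eq h hm' T
  haveI : Nontrivial (T : Subgroup G) := by
    apply Finite.one_lt_card_iff_nontrivial.1
    rw [hT]
    exact Nat.one_lt_two_pow ha
  have hcen : Nontrivial (Subgroup.center (T : Subgroup G)) := T.2.center_nontrivial
  have h2 : 2 ∣ Nat.card (Subgroup.center (T : Subgroup G)) := by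
    have hpg : IsPGroup 2 (Subgroup.center (T : Subgroup G)) := IsPGroup.to_subgroup T.2 _
    obtain ⟨k, hk⟩ := IsPGroup.iff_card.1 hpg
    rw [hk]
    have : k ≠ 0 := by
      rintro rfl
      have := Finite.one_lt_card_iff_nontrivial.2 hcen
      rw [hk] at this
      simp at this
    exact dvd_pow_self 2 this
  obtain ⟨w, hw⟩ := exists_prime_orderOf_dvd_card' 2 h2
  have hw2 : orderOf ((w : (T : Subgroup G)) : G) = 2 := by
    rw [Subgroup.orderOf_coe, Subgroup.orderOf_coe, hw]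
  refine ⟨((w : (T : Subgroup G)) : G), hw2, ?_⟩
  have hle : (T : Subgroup G) ≤ Subgroup.centralizer ({((w : (T : Subgroup G)) : G)} : Set G) := by
    intro t ht
    rw [Subgroup.mem_centralizer_singleton_iff]
    have := (Subgroup.mem_center_iff.1 w.2) ⟨t, ht⟩
    exact (congrArg Subtype.val this)
  have hd := Subgroup.card_dvd_of_le hle
  rw [hT] at hd
  obtain ⟨k, hk⟩ := hd
  have h3 := Subgroup.card_mul_index (Subgroup.centralizer ({((w : (T : Subgroup G)) : G)} : Set G))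
  rw [hk, h, mul_assoc] at h3
  have h4 := Nat.eq_of_mul_eq_mul_left (by positivity) h3
  exact ⟨k, by rw [← h4]; ring⟩

section Two

variable {P : Sylow p G} [IsSimpleGroup G]

/-- Numerical content of `e = 2`, common part. -/
theorem BData.two_degrees (D : BData p M P 2) (hM : IsPModular p M) (hodd : p ≠ 2) (h3 : p ≠ 3)
    (hperf : commutator G = ⊤) {m : ℕ} (hm : Nat.card G = p * m) (he2 : 2 ∣ p - 1) :
    ∃ (χ₁ θ : IrrCharacter G), χ₁ ≠ trivChar G ∧ θ ≠ trivChar G ∧ D.X = {trivChar G, χ₁} ∧ θ ∈ D.Y ∧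
      (D.εX χ₁ = 1 ∨ D.εX χ₁ = -1) ∧ (D.ε = 1 ∨ D.ε = -1) ∧
      charDegree (χ₁ : G → ℂ) ∣ m ∧ charDegree (θ : G → ℂ) ∣ m ∧
      1 < charDegree (χ₁ : G → ℂ) ∧ 1 < charDegree (θ : G → ℂ) ∧
      (charDegree (χ₁ : G → ℂ) : ℤ) ≡ D.εX χ₁ [ZMOD p] ∧ (charDegree (θ : G → ℂ) : ℤ) ≡ D.ε * 2 [ZMOD p] ∧
      D.ε * (charDegree (θ : G → ℂ) : ℤ) = 1 + D.εX χ₁ * (charDegree (χ₁ : G → ℂ) : ℤ) ∧
      (∀ g : G, ¬ p ∣ orderOf g → (D.ε : ℂ) * (θ : G → ℂ) g = 1 + (D.εX χ₁ : ℂ) * (χ₁ : G → ℂ) g) := by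
  classical
  have hpp : p.Prime := Fact.out
  obtain ⟨χ₁, hχ₁, hX⟩ := BData.exists_pair hodd hM h3 (D := D)
  have hYc : D.Y.Nonempty := by
    apply Finset.card_pos.1
    rw [D.cardY]
    have : 2 ≤ p - 1 := Nat.le_of_dvd (by have := hpp.two_le; omega) he2
    exact Nat.div_pos this (by norm_num)
  obtain ⟨θ, hθ⟩ := hYc
  have htX : trivChar G ∈ D.X := by rw [hX]; simp
  have h1X : χ₁ ∈ D.X := by rw [hX]; simp
  have hθne : θ ≠ trivChar G := by
    rintro rfl
    exact Finset.disjoint_left.1 D.disj htX hθ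
  have hε1 := D.εX_trivChar hodd htX
  have one_lt : ∀ ψ : IrrCharacter G, ψ ≠ trivChar G → 1 < charDegree (ψ : G → ℂ) := by
    intro ψ hψ
    exact BrauerSCNum.one_lt_degree hperf ψ hψ _ (apply_one ψ)
  refine ⟨χ₁, θ, hχ₁, hθne, hX, hθ, D.signX _ h1X, D.sign,
    D.degree_dvd_m hodd hm he2 (by norm_num) _ (Or.inl h1X), D.degree_dvd_m hodd hm he2 (by norm_num) _ (Or.inr hθ),
    one_lt _ hχ₁, one_lt _ hθne, D.degX _ h1X, ?_, ?_, ?_⟩
  · simpa using D.degY _ hθ
  · have h2 := D.sum_degree hθ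
    rw [hX, Finset.sum_pair hχ₁.symm, hε1, charDegree_trivChar] at h2
    simpa using h2
  · intro g hg
    have h2 := D.rel θ hθ g hg
    rw [hX, Finset.sum_pair hχ₁.symm, hε1] at h2
    simpa using h2

/-- The class count for `e = 2` at an involution. -/
theorem BData.two_count (D : BData p M P 2) (hM : IsPModular p M) (hodd : p ≠ 2) (h3 : p ≠ 3)
    (hperf : commutator G = ⊤) (hP : Nat.card P = p) {x : G} (hx : x ∈ (P : Subgroup G)) (hx1 : x ≠ 1)
    (hC : ∀ y : G, Commute y x → y ∈ (P : Subgroup G)) {m : ℕ} (hm : Nat.card G = p * m) (he2 : 2 ∣ p - 1)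
    {u : G} (hu : orderOf u = 2) :
    ∃ (d D' : ℕ) (ε₁ ε a b : ℤ) (n : ℕ),
      (ε₁ = 1 ∨ ε₁ = -1) ∧ (ε = 1 ∨ ε = -1) ∧ d ∣ m ∧ D' ∣ m ∧ 1 < d ∧ 1 < D' ∧
      (d : ℤ) ≡ ε₁ [ZMOD p] ∧ (D' : ℤ) ≡ ε * 2 [ZMOD p] ∧ ε * D' = 1 + ε₁ * d ∧ ε * b = 1 + ε₁ * a ∧
      (4 : ℤ) ∣ (d : ℤ) - a ∧ a.natAbs < d ∧ (4 : ℤ) ∣ (D' : ℤ) - b ∧ b.natAbs < D' ∧
      d ∣ (Subgroup.centralizer ({u} : Set G)).index * a.natAbs ∧
      D' ∣ (Subgroup.centralizer ({u} : Set G)).index * b.natAbs ∧
      (((Subgroup.centralizer ({u} : Set G)).index : ℕ) : ℂ) ^ 2 *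
        (1 + (ε₁ : ℂ) * (a : ℂ) ^ 2 / (d : ℂ) - (ε : ℂ) * (b : ℂ) ^ 2 / (D' : ℂ)) = (Nat.card G : ℂ) * n := by
  classical
  have hpp : p.Prime := Fact.out
  obtain ⟨χ₁, θ, hχ₁, hθne, hX, hθ, hs1, hs, hd1, hd2, hl1, hl2, hc1, hc2, hsum, hrel⟩ :=
    D.two_degrees hM hodd h3 hperf hm he2
  have huu : u ^ 2 = 1 := by rw [← hu]; exact pow_orderOf_eq_one u
  have hu1 : u ≠ 1 := by
    rintro rfl
    rw [orderOf_one] at hu
    omega
  have hup : ¬ p ∣ orderOf u := by
    rw [hu]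
    intro h
    exact hodd ((Nat.prime_dvd_prime_iff_eq hpp Nat.prime_two).1 h)
  obtain ⟨a, ha, ha4, hale⟩ := involution_value hperf χ₁ huu
  obtain ⟨b, hb, hb4, hble⟩ := involution_value hperf θ huu
  have hne1 : (χ₁ : G → ℂ) ≠ fun _ => 1 := fun h => hχ₁ (Subtype.ext h)
  have hne2 : (θ : G → ℂ) ≠ fun _ => 1 := fun h => hθne (Subtype.ext h)
  have hlt : ∀ (ψ : IrrCharacter G) (k : ℤ), (ψ : G → ℂ) ≠ (fun _ => 1) → (ψ : G → ℂ) u = k →
      |k| ≤ charDegree (ψ : G → ℂ) → k.natAbs < charDegree (ψ : G → ℂ) := by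
    intro ψ k h1 h2 h3
    have h4 := norm_ne_degree hperf ψ h1 hu1
    rw [h2] at h4
    have h5 : ‖(k : ℂ)‖ = ((k.natAbs : ℕ) : ℝ) := by
      rw [Complex.norm_intCast, Nat.cast_natAbs]
      simp
    rw [h5] at h4
    have h6 : k.natAbs ≤ charDegree (ψ : G → ℂ) := by
      have : (k.natAbs : ℤ) ≤ charDegree (ψ : G → ℂ) := by rwa [Int.natCast_natAbs]
      exact_mod_cast this
    exact lt_of_le_of_ne h6 (fun h => h4 (by exact_mod_cast h))
  obtain ⟨n, hn⟩ := D.qcount hM hodd hP hx hx1 hC hup hθ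
  have htX : trivChar G ∈ D.X := by rw [hX]; simp
  have hε1 := D.εX_trivChar hodd htX
  rw [hX, Finset.sum_pair hχ₁.symm, hε1, ha, hb] at hn
  refine ⟨_, _, _, _, a, b, n, hs1, hs, hd1, hd2, hl1, hl2, hc1, hc2, hsum, ?_, ha4, hlt _ _ hne1 ha hale, hb4,
    hlt _ _ hne2 hb hble, ?_, ?_, ?_⟩
  · have h2 := hrel u hup
    rw [ha, hb] at h2
    exact_mod_cast h2
  · exact BrauerSCNum.dvd_of_value χ₁ u a ha _ (apply_one χ₁) (degree_pos χ₁).ne'
  · exact BrauerSCNum.dvd_of_value θ u b hb _ (apply_one θ) (degree_pos θ).ne'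
  · rw [← hn, charDegree_trivChar]
    simp only [coe_trivChar, map_intCast, map_one]
    have h1 : ∀ k : ℤ, (k : ℂ) * (k : ℂ) = (k : ℂ) ^ 2 := fun k => by ring
    simp only [h1]
    push_cast
    ring

end Two

/-- Setup at a prime `p` exactly dividing the order. -/
theorem setup [IsSimpleGroup G] {m : ℕ} (hodd : p ≠ 2) (hN : Nat.card G = p * m) (hpm : ¬ p ∣ m) (hm : 1 < m) :
    commutator G = ⊤ ∧ ∃ (P : Sylow p G) (x : G) (M : Ideal AlgInt) (e : ℕ),
      Nat.card P = p ∧ x ∈ (P : Subgroup G) ∧ x ≠ 1 ∧ IsPModular p M ∧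
      (Subgroup.centralizer ((P : Subgroup G) : Set G)).relIndex (Subgroup.normalizer ((P : Subgroup G) : Set G)) = e ∧
      e ∣ p - 1 ∧ e ≠ 0 ∧ e ≠ 1 ∧
      Nat.card (Subgroup.normalizer ((P : Subgroup G) : Set G)) = Nat.card (Subgroup.centralizer ((P : Subgroup G) : Set G)) * e ∧
      Nat.card (Subgroup.normalizer ((P : Subgroup G) : Set G)) * Nat.card (Sylow p G) = Nat.card G ∧
      Nat.card (Sylow p G) % p = 1 ∧
      (∀ y : G, y ∈ Subgroup.centralizer ((P : Subgroup G) : Set G) ↔ Commute y x) ∧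
      (P : Subgroup G) ≤ Subgroup.centralizer ((P : Subgroup G) : Set G) := by
  classical
  have hpp : p.Prime := Fact.out
  have hperf : commutator G = ⊤ := by
    rcases (commutator_normal (⊤ : Subgroup G) ⊤).eq_bot_or_eq_top with h | h
    · exfalso
      have hc : ∀ a b : G, a * b = b * a := by
        intro a b
        have h3 : ⁅a, b⁆ ∈ commutator G := Subgroup.commutator_mem_commutator (mem_top a) (mem_top b)
        rw [_root_.commutator_def, h, mem_bot] at h3
        exact commutatorElement_eq_one_iff_mul_comm.1 h3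
      haveI : IsMulCommutative G := ⟨⟨hc⟩⟩
      have h4 : (Nat.card G).Prime := Group.is_simple_iff_prime_card.mp inferInstance
      rw [hN] at h4
      exact Nat.not_prime_mul hpp.ne_one (by omega : m ≠ 1) h4
    · exact h
  refine ⟨hperf, ?_⟩
  obtain ⟨P⟩ : Nonempty (Sylow p G) := inferInstance
  have hcard : Nat.card (P : Subgroup G) = p := Cfsg.Agent.Lib.Basic.SmallSimple.card_sylow_eq_of_card_eq hpp hN hpm P
  have hcard' : Nat.card P = p := hcard
  haveI : Nontrivial (P : Subgroup G) := by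
    apply Finite.one_lt_card_iff_nontrivial.1
    rw [hcard]
    exact hpp.one_lt
  obtain ⟨y, hy⟩ := exists_ne (1 : (P : Subgroup G))
  have hx1 : (y : G) ≠ 1 := fun h => hy (Subtype.ext h)
  have hcyc : IsCyclic (P : Subgroup G) := isCyclic_of_prime_card (p := p) hcard
  have hPcomm : ∀ a ∈ (P : Subgroup G), ∀ b ∈ (P : Subgroup G), a * b = b * a := by
    intro a ha b hb
    have h1 : (⟨a, ha⟩ : (P : Subgroup G)) * ⟨b, hb⟩ = ⟨b, hb⟩ * ⟨a, ha⟩ := by
      obtain ⟨g, hg⟩ := hcyc.exists_generator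
      obtain ⟨i, hi⟩ := Subgroup.mem_zpowers_iff.1 (hg ⟨a, ha⟩)
      obtain ⟨j, hj⟩ := Subgroup.mem_zpowers_iff.1 (hg ⟨b, hb⟩)
      rw [← hi, ← hj, ← zpow_add, ← zpow_add, add_comm]
    exact congrArg Subtype.val h1
  set C := Subgroup.centralizer ((P : Subgroup G) : Set G) with hC
  set N := Subgroup.normalizer ((P : Subgroup G) : Set G) with hNdef
  have hMex : ∃ M : Ideal AlgInt, IsPModular p M := exists_modular p hpp
  obtain ⟨M, hM⟩ := hMex
  have hle : C ≤ N := Subgroup.centralizer_le_normalizer _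
  have hdvd : C.relIndex N ∣ p - 1 := by
    have h6 : Nat.card (MulAut (P : Subgroup G)) = p - 1 := by
      rw [IsCyclic.card_mulAut, hcard, Nat.totient_prime hpp]
    rw [← h6]
    exact relIndex_centralizer_dvd (P : Subgroup G)
  have hrelz : C.relIndex N ≠ 0 := by
    intro h
    rw [h] at hdvd
    have := hpp.two_le
    have h0 := Nat.eq_zero_of_zero_dvd hdvd
    omega
  have hrel1 : C.relIndex N ≠ 1 := by
    intro h
    have h8 : N ≤ C := Subgroup.relIndex_eq_one.1 h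
    have hdv : p ∣ Nat.card G := by rw [hN]; exact dvd_mul_right _ _
    have h9 := Cfsg.Agent.Lib.Basic.SmallSimple.card_eq_of_le_centralizer hdv P h8
    rw [hcard, hN] at h9
    have : m = 1 := by
      apply Nat.eq_of_mul_eq_mul_left hpp.pos
      omega
    omega
  refine ⟨P, y, M, C.relIndex N, hcard', y.2, hx1, hM, rfl, hdvd, hrelz, hrel1, ?_, ?_, ?_, ?_, ?_⟩
  · exact (Cfsg.Agent.Lib.Perm.SylowIn.card_mul_relIndex hle).symm
  · exact card_normalizer_mul P
  · have h1 : Nat.card (Sylow p G) % p = 1 % p := card_sylow_modEq_one p G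
    rw [h1]
    exact Nat.mod_eq_of_lt hpp.one_lt
  · intro z
    constructor
    · intro hz
      exact ((Subgroup.mem_centralizer_iff.1 hz (y : G) y.2)).symm
    · intro hz
      rw [Subgroup.mem_centralizer_iff]
      intro g hg
      -- `g` is a power of `y`
      have hgen : Subgroup.zpowers (y : (P : Subgroup G)) = ⊤ := by
        apply Subgroup.eq_top_of_card_eq
        have h3 : Nat.card (Subgroup.zpowers (y : (P : Subgroup G))) = orderOf y := Nat.card_zpowers y
        have h4 : orderOf y ∣ Nat.card (P : Subgroup G) := orderOf_dvd_natCard y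
        rw [hcard] at h4
        rcases (Nat.dvd_prime hpp).1 h4 with h5 | h5
        · exact absurd (orderOf_eq_one_iff.1 h5) hy
        · rw [h3, h5, hcard]
      have hmem : (⟨g, hg⟩ : (P : Subgroup G)) ∈ Subgroup.zpowers y := by rw [hgen]; trivial
      obtain ⟨k, hk⟩ := Subgroup.mem_zpowers_iff.1 hmem
      have hk' : (y : G) ^ k = g := by
        have := congrArg Subtype.val hk
        simpa using this
      rw [← hk']
      exact ((Commute.zpow_right hz k)).symm.eq
  · intro a ha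
    rw [Subgroup.mem_centralizer_iff]
    intro b hb
    exact hPcomm b hb a ha

end Data

end Cfsg.Agent.Lib.SmallOrd.PN
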