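import Mathlib
import Cfsg.Agent.Lib.SmallOrd.PN
import Cfsg.Agent.Lib.SmallOrd.ClassSign

/-!
# The case `p = 5`, `e = 4` of the principal block numerics

With `t = (p - 1) / e = 1`, the principal block consists of five characters with signs.
-/

set_option autoImplicit false
set_option linter.unusedSectionVars false

namespace Cfsg.Agent.Lib.SmallOrd.PN

open Cfsg Subgroup Cfsg.Agent.Lib.Char Cfsg.Agent.Lib.Blocks.Local Cfsg.Agent.Lib.Blocks.Central
open Cfsg.Agent.Lib.Blocks.Sections Cfsg.Agent.Lib.Blocks.Principal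
open scoped ComplexConjugate

universe u

theorem card_eq_four {α : Type*} [DecidableEq α] {s : Finset α} (h : s.card = 4) :
    ∃ a b c d : α, a ≠ b ∧ a ≠ c ∧ a ≠ d ∧ b ≠ c ∧ b ≠ d ∧ c ≠ d ∧ s = {a, b, c, d} := by
  obtain ⟨a, t, hat, rfl, ht⟩ := Finset.card_eq_succ.1 h
  obtain ⟨b, c, d, hbc, hbd, hcd, rfl⟩ := Finset.card_eq_three.1 ht
  simp only [Finset.mem_insert, Finset.mem_singleton, not_or] at hat
  exact ⟨a, b, c, d, hat.1, hat.2.1, hat.2.2, hbc, hbd, hcd, rfl⟩

theorem sum_four {α β : Type*} [DecidableEq α] [AddCommMonoid β] (f : α → β) {a b c d : α}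
    (hab : a ≠ b) (hac : a ≠ c) (had : a ≠ d) (hbc : b ≠ c) (hbd : b ≠ d) (hcd : c ≠ d) :
    ∑ x ∈ ({a, b, c, d} : Finset α), f x = f a + f b + f c + f d := by
  rw [Finset.sum_insert (by simp [hab, hac, had]), Finset.sum_insert (by simp [hbc, hbd]),
    Finset.sum_pair hcd]
  simp only [add_assoc]

variable {G : Type u} [Group G] [Fintype G]

/-- The numerical data at a self-centralizing `P` of order `5` with `e = 4`. -/
theorem BData.four_data [Fact (Nat.Prime 5)] {M : Ideal AlgInt} [IsSimpleGroup G] {P : Sylow 5 G} (D : BData 5 M P 4)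
    (hM : IsPModular 5 M) (hperf : commutator G = ⊤) (hP : Nat.card P = 5) {x : G}
    (hx : x ∈ (P : Subgroup G)) (hx1 : x ≠ 1) (hC : ∀ y : G, Commute y x → y ∈ (P : Subgroup G)) {m : ℕ}
    (hm : Nat.card G = 5 * m) {u : G} (hu : orderOf u = 2) :
    ∃ (d : Fin 4 → ℕ) (s a : Fin 4 → ℤ) (n : ℕ),
      (∀ i, s i = 1 ∨ s i = -1) ∧ (∀ i, (d i : ℤ) ≡ s i [ZMOD 5]) ∧ (∀ i, d i ∣ m) ∧ (∀ i, 1 < d i) ∧
      (∀ i, (4 : ℤ) ∣ (d i : ℤ) - a i) ∧ (∀ i, (a i).natAbs < d i) ∧
      (∀ i, d i ∣ (Subgroup.centralizer ({u} : Set G)).index * (a i).natAbs) ∧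
      (1 + ∑ i, s i * d i = 0) ∧ (1 + ∑ i, s i * a i = 0) ∧
      (1 + ∑ i, a i ^ 2 ≤ (Nat.card (Subgroup.centralizer ({u} : Set G)) : ℤ)) ∧
      (((Subgroup.centralizer ({u} : Set G)).index : ℕ) : ℂ) ^ 2 *
        (1 + ∑ i, (s i : ℂ) * (a i : ℂ) ^ 2 / (d i : ℂ)) = (Nat.card G : ℂ) * n := by
  classical
  letI : Fintype (IrrCharacter G) := Fintype.ofFinite _
  have hodd : (5 : ℕ) ≠ 2 := by norm_num
  have hYcard : D.Y.card = 1 := by
    rw [D.cardY]
  obtain ⟨θ₀, hY⟩ := Finset.card_eq_one.1 hYcard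
  have hθ₀ : θ₀ ∈ D.Y := by rw [hY]; simp
  have huu : u ^ 2 = 1 := by rw [← hu]; exact pow_orderOf_eq_one u
  have hu1 : u ≠ 1 := by
    rintro rfl
    rw [orderOf_one] at hu
    omega
  have hup : ¬ 5 ∣ orderOf u := by
    rw [hu]
    norm_num
  -- the uniform sign
  let δ : IrrCharacter G → ℤ := fun ψ => if ψ ∈ D.X then D.εX ψ else -D.ε
  let W : Finset (IrrCharacter G) := D.X ∪ {θ₀}
  have hδX : ∀ ψ ∈ D.X, δ ψ = D.εX ψ := fun ψ hψ => if_pos hψ
  have hθnot : θ₀ ∉ D.X := fun h => Finset.disjoint_left.1 D.disj h hθ₀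
  have hδθ : δ θ₀ = -D.ε := if_neg hθnot
  have hsumW : ∀ f : IrrCharacter G → ℂ,
      ∑ ψ ∈ W, (δ ψ : ℂ) * f ψ = ∑ ψ ∈ D.X, (D.εX ψ : ℂ) * f ψ - (D.ε : ℂ) * f θ₀ := by
    intro f
    rw [Finset.sum_union (by simpa using hθnot), Finset.sum_singleton, hδθ,
      Finset.sum_congr rfl (fun ψ hψ => by rw [hδX ψ hψ])]
    push_cast
    ring
  have hWmem : ∀ ψ ∈ W, ψ ∈ D.X ∨ ψ ∈ D.Y := by
    intro ψ hψ
    rcases Finset.mem_union.1 hψ with h | h
    · exact Or.inl h
    · rw [Finset.mem_singleton] at h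
      subst h
      exact Or.inr hθ₀
  have hδs : ∀ ψ ∈ W, δ ψ = 1 ∨ δ ψ = -1 := by
    intro ψ hψ
    rcases Finset.mem_union.1 hψ with h | h
    · rw [hδX ψ h]; exact D.signX ψ h
    · rw [Finset.mem_singleton] at h
      subst h
      rw [hδθ]
      rcases D.sign with h | h <;> rw [h] <;> norm_num
  have hδd : ∀ ψ ∈ W, (charDegree (ψ : G → ℂ) : ℤ) ≡ δ ψ [ZMOD 5] := by
    intro ψ hψ
    rcases Finset.mem_union.1 hψ with h | h
    · rw [hδX ψ h]; exact D.degX ψ h
    · rw [Finset.mem_singleton] at h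
      subst h
      rw [hδθ]
      have h1 := D.degY _ hθ₀
      refine h1.trans ?_
      rw [Int.modEq_iff_dvd]
      push_cast
      exact ⟨-D.ε, by ring⟩
  have htW : trivChar G ∈ W := by
    rcases D.trivChar_mem hM with h | h
    · exact Finset.mem_union_left _ h
    · rw [hY, Finset.mem_singleton] at h
      rw [h]
      exact Finset.mem_union_right _ (by simp)
  have hδt : δ (trivChar G) = 1 := by
    have h1 := hδd _ htW
    rw [charDegree_trivChar] at h1
    rcases hδs _ htW with h2 | h2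
    · exact h2
    · rw [h2] at h1
      exact absurd h1 (by decide)
  have hWcard : W.card = 5 := by
    rw [Finset.card_union_of_disjoint (by simpa using hθnot), D.cardX, Finset.card_singleton]
  have hEcard : (W.erase (trivChar G)).card = 4 := by
    rw [Finset.card_erase_of_mem htW, hWcard]
  obtain ⟨ψ₁, ψ₂, ψ₃, ψ₄, h12, h13, h14, h23, h24, h34, hE⟩ := card_eq_four hEcard
  let ψ : Fin 4 → IrrCharacter G := ![ψ₁, ψ₂, ψ₃, ψ₄]
  have hψmem : ∀ i, ψ i ∈ W.erase (trivChar G) := by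
    intro i
    rw [hE]
    fin_cases i <;> simp [ψ]
  have hψW : ∀ i, ψ i ∈ W := fun i => Finset.mem_of_mem_erase (hψmem i)
  have hψne : ∀ i, ψ i ≠ trivChar G := fun i => Finset.ne_of_mem_erase (hψmem i)
  have hsumE : ∀ {β : Type _} [AddCommMonoid β] (f : IrrCharacter G → β),
      ∑ χ ∈ W.erase (trivChar G), f χ = ∑ i, f (ψ i) := by
    intro β _ f
    rw [hE, sum_four f h12 h13 h14 h23 h24 h34, Fin.sum_univ_four]
    rfl
  have hsplitW : ∀ f : IrrCharacter G → ℂ,
      ∑ χ ∈ W, (δ χ : ℂ) * f χ = f (trivChar G) + ∑ i, (δ (ψ i) : ℂ) * f (ψ i) := by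
    intro f
    rw [← Finset.add_sum_erase _ _ htW, hδt, hsumE (fun χ => (δ χ : ℂ) * f χ)]
    simp
  choose nn hnn using fun χ : IrrCharacter G => involution_value hperf χ huu
  have hnlt : ∀ i, (nn (ψ i)).natAbs < charDegree ((ψ i : IrrCharacter G) : G → ℂ) := by
    intro i
    have hne : ((ψ i : IrrCharacter G) : G → ℂ) ≠ fun _ => 1 := fun h => hψne i (Subtype.ext h)
    have h4 := norm_ne_degree hperf (ψ i) hne hu1
    rw [(hnn (ψ i)).1] at h4
    have h5 : ‖((nn (ψ i) : ℤ) : ℂ)‖ = (((nn (ψ i)).natAbs : ℕ) : ℝ) := by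
      rw [Complex.norm_intCast, Nat.cast_natAbs]
      simp
    rw [h5] at h4
    have h6 : (nn (ψ i)).natAbs ≤ charDegree ((ψ i : IrrCharacter G) : G → ℂ) := by
      have h7 := (hnn (ψ i)).2.2
      have : ((nn (ψ i)).natAbs : ℤ) ≤ charDegree ((ψ i : IrrCharacter G) : G → ℂ) := by rwa [Int.natCast_natAbs]
      exact_mod_cast this
    exact lt_of_le_of_ne h6 (fun h => h4 (by exact_mod_cast h))
  obtain ⟨n, hn⟩ := D.qcount hM hodd hP hx hx1 hC hup hθ₀
  have hnn1 : nn (trivChar G) = 1 := by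
    have h1 := (hnn (trivChar G)).1
    simp only [coe_trivChar] at h1
    exact_mod_cast h1.symm
  refine ⟨fun i => charDegree ((ψ i : IrrCharacter G) : G → ℂ), fun i => δ (ψ i), fun i => nn (ψ i), n,
    fun i => hδs _ (hψW i), fun i => hδd _ (hψW i), ?_, ?_, fun i => (hnn (ψ i)).2.1, hnlt, ?_, ?_, ?_, ?_, ?_⟩
  · intro i
    have h5 : (5 : ℕ) - 1 = 4 := rfl
    exact D.degree_dvd_m hodd hm (by norm_num) (by norm_num) _ (by
      have h6 := hWmem _ (hψW i)
      exact h6)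
  · intro i
    exact BrauerSCNum.one_lt_degree hperf (ψ i) (hψne i) _ (apply_one (ψ i))
  · intro i
    exact BrauerSCNum.dvd_of_value (ψ i) u (nn (ψ i)) (hnn (ψ i)).1 _ (apply_one (ψ i)) (degree_pos (ψ i)).ne'
  · -- the degree relation
    have h1 := hsplitW (fun χ => (charDegree (χ : G → ℂ) : ℂ))
    rw [hsumW] at h1
    have h2 := D.sum_degree hθ₀
    have h3 : (((D.ε * (charDegree (θ₀ : G → ℂ) : ℤ) : ℤ)) : ℂ) =
        ((∑ χ ∈ D.X, D.εX χ * (charDegree (χ : G → ℂ) : ℤ) : ℤ) : ℂ) := by rw [h2]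
    push_cast at h3
    rw [← h3, sub_self] at h1
    simp only [charDegree_trivChar, Nat.cast_one] at h1
    have h4 : ((1 + ∑ i, δ (ψ i) * (charDegree ((ψ i : IrrCharacter G) : G → ℂ) : ℤ) : ℤ) : ℂ) = 0 := by
      push_cast
      exact h1.symm
    exact_mod_cast h4
  · -- the value relation
    have h1 := hsplitW (fun χ => (χ : G → ℂ) u)
    rw [hsumW, ← D.rel θ₀ hθ₀ u hup, sub_self] at h1
    simp only [coe_trivChar] at h1
    simp only [(hnn _).1] at h1
    have h4 : ((1 + ∑ i, δ (ψ i) * nn (ψ i) : ℤ) : ℂ) = 0 := by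
      push_cast
      exact h1.symm
    exact_mod_cast h4
  · -- the norm bound
    have h1 := Cfsg.Agent.Lib.Char.CompleteCor.column_orth_conj (G := G) (IsConj.refl u)
    have h2 : ∀ χ : IrrCharacter G, (χ : G → ℂ) u * conj ((χ : G → ℂ) u) = ((nn χ ^ 2 : ℤ) : ℂ) := by
      intro χ
      rw [(hnn χ).1, map_intCast]
      push_cast
      ring
    simp only [h2] at h1
    have h3 : ∑ χ : IrrCharacter G, nn χ ^ 2 = (Nat.card (Subgroup.centralizer ({u} : Set G)) : ℤ) := by
      have : ((∑ χ : IrrCharacter G, nn χ ^ 2 : ℤ) : ℂ) = ((Nat.card (Subgroup.centralizer ({u} : Set G)) : ℤ) : ℂ) := by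
        push_cast at h1 ⊢
        exact h1
      exact_mod_cast this
    rw [← h3]
    have h4 : ∑ χ ∈ W, nn χ ^ 2 ≤ ∑ χ : IrrCharacter G, nn χ ^ 2 :=
      Finset.sum_le_sum_of_subset_of_nonneg (Finset.subset_univ _) (fun _ _ _ => sq_nonneg _)
    rw [← Finset.add_sum_erase _ _ htW, hsumE (fun χ => nn χ ^ 2), hnn1] at h4
    simpa using h4
  · -- the class count
    rw [← hn]
    congr 1
    have h1 := hsplitW (fun χ => ((nn χ : ℂ)) ^ 2 / (charDegree (χ : G → ℂ) : ℂ))
    rw [hsumW] at h1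
    simp only [hnn1, charDegree_trivChar] at h1
    have h5 : ∀ χ ∈ D.X, (D.εX χ : ℂ) * ((χ : G → ℂ) u * conj ((χ : G → ℂ) u)) / (charDegree (χ : G → ℂ) : ℂ) =
        (D.εX χ : ℂ) * ((nn χ : ℂ) ^ 2 / (charDegree (χ : G → ℂ) : ℂ)) := by
      intro χ _
      rw [(hnn χ).1, map_intCast]
      ring
    rw [Finset.sum_congr rfl h5, (hnn θ₀).1, map_intCast]
    have h6 : (D.ε : ℂ) * ((nn θ₀ : ℂ) * (nn θ₀ : ℂ)) / (charDegree (θ₀ : G → ℂ) : ℂ) =
        (D.ε : ℂ) * ((nn θ₀ : ℂ) ^ 2 / (charDegree (θ₀ : G → ℂ) : ℂ)) := by ring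
    rw [h6, h1]
    simp only [Int.cast_one, Nat.cast_one, one_pow, div_one]
    congr 1
    exact Finset.sum_congr rfl (fun i _ => by ring)

/-- A central element of prime order of a Sylow subgroup. -/
theorem exists_central_prime {H : Type*} [Group H] [Finite H] {q a m' : ℕ} [Fact q.Prime]
    (h : Nat.card H = q ^ a * m') (hm' : ¬ q ∣ m') (ha : a ≠ 0) :
    ∃ u : H, orderOf u = q ∧ q ^ a ∣ Nat.card (Subgroup.centralizer ({u} : Set H)) := by
  classical
  have hqq : q.Prime := Fact.out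
  obtain ⟨T⟩ : Nonempty (Sylow q H) := inferInstance
  have hT : Nat.card (T : Subgroup H) = q ^ a := Cfsg.Agent.Lib.SmallCen.SmallOrder.card_sylow_eq h hm' T
  haveI : Nontrivial (T : Subgroup H) := by
    apply Finite.one_lt_card_iff_nontrivial.1
    rw [hT]
    exact Nat.one_lt_pow ha hqq.one_lt
  have hcen : Nontrivial (Subgroup.center (T : Subgroup H)) := T.2.center_nontrivial
  have h2 : q ∣ Nat.card (Subgroup.center (T : Subgroup H)) := by
    have hpg : IsPGroup q (Subgroup.center (T : Subgroup H)) := IsPGroup.to_subgroup T.2 _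
    obtain ⟨k, hk⟩ := IsPGroup.iff_card.1 hpg
    rw [hk]
    have : k ≠ 0 := by
      rintro rfl
      have := Finite.one_lt_card_iff_nontrivial.2 hcen
      rw [hk] at this
      simp at this
    exact dvd_pow_self q this
  obtain ⟨w, hw⟩ := exists_prime_orderOf_dvd_card' q h2
  have hw2 : orderOf ((w : (T : Subgroup H)) : H) = q := by
    rw [Subgroup.orderOf_coe, Subgroup.orderOf_coe, hw]
  refine ⟨((w : (T : Subgroup H)) : H), hw2, ?_⟩
  have hle : (T : Subgroup H) ≤ Subgroup.centralizer ({((w : (T : Subgroup H)) : H)} : Set H) := by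
    intro t ht
    rw [Subgroup.mem_centralizer_singleton_iff]
    have := (Subgroup.mem_center_iff.1 w.2) ⟨t, ht⟩
    exact (congrArg Subtype.val this)
  have hd := Subgroup.card_dvd_of_le hle
  rwa [hT] at hd

/-- An element commuting with a conjugate of a self-centralizing element of prime order. -/
theorem not_dvd_index_of_selfCen [Finite G] {p m : ℕ} [Fact p.Prime] (hN : Nat.card G = p * m) (hpm : ¬ p ∣ m) (P : Subgroup G) (hP : Nat.card P = p) {x : G}
    (hx : x ∈ P) (hx1 : x ≠ 1) (hC : ∀ y : G, Commute y x → y ∈ P) {u : G} (hu : orderOf u = 2) (hp2 : p ≠ 2) :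
    p ∣ (Subgroup.centralizer ({u} : Set G)).index := by
  classical
  have hpp : p.Prime := Fact.out
  by_contra hnd
  have h1 := Subgroup.card_mul_index (Subgroup.centralizer ({u} : Set G))
  have h2 : p ∣ Nat.card (Subgroup.centralizer ({u} : Set G)) := by
    have h3 : p ∣ Nat.card (Subgroup.centralizer ({u} : Set G)) * (Subgroup.centralizer ({u} : Set G)).index := by
      rw [h1, hN]
      exact dvd_mul_right _ _
    exact (hpp.dvd_mul.1 h3).resolve_right hnd
  obtain ⟨v, hv⟩ := exists_prime_orderOf_dvd_card' p h2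
  have hv' : orderOf (v : G) = p := by rw [Subgroup.orderOf_coe, hv]
  have hA : Nat.card (Subgroup.zpowers (v : G)) = p ^ 1 := by rw [Nat.card_zpowers, hv', pow_one]
  obtain ⟨c, -, hc⟩ := Cfsg.Agent.Lib.SmallOrd.ClassSign.exists_conj_of_card (H := ⊤) (A := Subgroup.zpowers (v : G)) (B := P) le_top le_top
    hA (by rw [hP, pow_one]) (by rw [Subgroup.card_top, hN, pow_one]) hpm
  have hv'P := hc _ (Subgroup.mem_zpowers (v : G))
  set v' := c * (v : G) * c⁻¹ with hv'def
  have hv1 : (v : G) ≠ 1 := by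
    intro h
    rw [h, orderOf_one] at hv'
    exact hpp.one_lt.ne hv'
  have hv'1 : v' ≠ 1 := by
    intro h
    apply hv1
    have : (v : G) = c⁻¹ * v' * c := by rw [hv'def]; group
    rw [this, h]
    group
  have hcomm : (v : G) * u = u * (v : G) := by
    have := v.2
    rw [Subgroup.mem_centralizer_singleton_iff] at this
    exact this
  set u' := c * u * c⁻¹ with hu'def
  have hcomm' : Commute u' v' := by
    show u' * v' = v' * u'
    rw [hu'def, hv'def]
    calc c * u * c⁻¹ * (c * (v : G) * c⁻¹) = c * (u * (v : G)) * c⁻¹ := by group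
      _ = c * ((v : G) * u) * c⁻¹ := by rw [hcomm]
      _ = c * (v : G) * c⁻¹ * (c * u * c⁻¹) := by group
  have hxz : (⟨x, hx⟩ : P) ∈ Subgroup.zpowers (⟨v', hv'P⟩ : P) := by
    apply mem_zpowers_of_prime_card hP
    intro h
    exact hv'1 (congrArg Subtype.val h)
  obtain ⟨k, hk⟩ := Subgroup.mem_zpowers_iff.1 hxz
  have hk' : v' ^ k = x := by
    have := congrArg Subtype.val hk
    simpa using this
  have hu'x : Commute u' x := by
    rw [← hk']
    exact hcomm'.zpow_right k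
  have hu'P := hC u' hu'x
  have h5 : orderOf u' = 2 := by
    rw [hu'def]
    have : c * u * c⁻¹ = MulAut.conj c u := rfl
    rw [this, MulEquiv.orderOf_eq, hu]
  have h6 : orderOf (⟨u', hu'P⟩ : P) ∣ Nat.card P := orderOf_dvd_natCard _
  rw [hP, Subgroup.orderOf_mk, h5] at h6
  exact hp2 ((Nat.prime_dvd_prime_iff_eq Nat.prime_two hpp).1 h6).symm

end Cfsg.Agent.Lib.SmallOrd.PN
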